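import Cfsg.Agent.H25.FpfMod
import Cfsg.Agent.H12.CITBasic

/-!
Higman's and Martineau's theorems in the abstract setting: a normal `2`-subgroup with quotient
`SL₂(2ⁿ)` or `Sz(2ⁿ)` in a CIT group is elementary abelian.
-/

set_option autoImplicit false

namespace Cfsg.Agent.H25

open Matrix W2 TensorProduct

variable {L : Type*} [Group L] {F : Type*} [Field F] [CharP F 2] [Finite F]
  {ι : Type*} [Fintype ι] [DecidableEq ι]

namespace Datum

section Mod

variable (D : Datum L F ι) {X Y Z : Type*} [AddCommGroup X] [Module (W2 F) X] [AddCommGroup Y]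
  [Module (W2 F) Y] [AddCommGroup Z] [Module (W2 F) Z] {ρX : Representation (W2 F) L X}
  {ρY : Representation (W2 F) L Y} {ρZ : Representation (W2 F) L Z}

theorem exists_weight [Finite Z] (hZ : Fpf ρZ) {z : Z} (hz : z ≠ 0) (hU : ∀ x ∈ D.U, ρZ x z = z)
    {χ : Fˣ → F} (hχ : ∀ s, ρZ (D.h s) z = T (χ s) • z) :
    ∃ τ : F ≃+* F, ∀ s, χ s = τ (D.wt s) := by
  have : Finite (Module.Dual (W2 F) Z) := Finite.of_injective _ DFunLike.coe_injective
  obtain ⟨f, h1, h2, ψ, h3⟩ := D.exists_fix_top (ρ := ρZ.dual) (inv_coker (Module.Dual.eval _ _ z))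
    (fun e => by
      obtain ⟨f, hf⟩ := exists_dual_ne_zero (F := F) hz
      have := mem_coker.1 (e ▸ Submodule.mem_top : f ∈ _) 1
      rw [map_one] at this
      exact hf this)
  obtain ⟨τ, -, h, -⟩ := D.biInv (hZ.fn f z) (ψ := ψ) (χ := χ)
    (fun x hx g => by
      simpa [Module.Dual.transpose_apply, sub_eq_zero] using mem_coker.1 (h2 _ (inv_mem hx)) g⁻¹)
    (fun x hx g => by simp [hU x hx])
    (fun s g => by simpa [Module.Dual.transpose_apply] using LinearMap.congr_fun (h3 s) (ρZ g z))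
    (fun s g => by simp [hχ])
    (by
      by_contra hn
      push Not at hn
      exact h1 (mem_coker.2 fun g => hn g⁻¹))
  exact ⟨τ, h⟩

theorem exists_natQ [Finite X] {W : Submodule (W2 F) X} (hW : Inv ρX W) (h0 : W ≠ ⊥)
    (h : ∀ a : L, Odd (orderOf a) → a ≠ 1 →
      ∀ v ∈ W, ∑ j ∈ Finset.range (orderOf a), ρX (a ^ j) v = 0) :
    ∃ σ y, D.NatQ ρX σ y ∧ (∀ j, y j ∈ W) ∧ y D.top ≠ 0 := by
  have : Finite (Module.Dual (W2 F) W) := Finite.of_injective _ DFunLike.coe_injective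
  have := Submodule.nontrivial_iff_ne_bot.2 h0
  obtain ⟨M, hM, h1, -, h2⟩ := exists_min_inv (ρ := ρX.subrepresentation W hW) (M₀ := ⊥) (M₁ := ⊤)
    (fun _ _ _ => trivial) bot_lt_top
  obtain ⟨v, hv, hv0, hvU, χ, hχ⟩ := D.exists_fix (M₀ := ⊥) (fun _ => bot_le) hM h1.not_ge
  simp only [Submodule.mem_bot, sub_eq_zero] at hv0 hvU
  obtain ⟨f, hf, hfU, ψ, hψ⟩ := D.exists_fix_top hM.dualAnn (fun e => by
    obtain ⟨f, hf⟩ := exists_dual_ne_zero (F := F) hv0
    exact hf ((Submodule.mem_dualAnnihilator _).1 (e ▸ Submodule.mem_top) _ hv))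
  obtain ⟨σ, c, y, hy, rfl, -⟩ := D.exists_nat (Fpf.sub hW h) hM hv hvU hχ hfU hψ hv0 (by
    by_contra hne
    have := h2 _ (hM.inf (inv_coker f)) (bot_lt_iff_ne_bot.2 hne) inf_le_left
    exact hf ((Submodule.mem_dualAnnihilator _).2 fun x hx => by
      have := mem_coker.1 (inf_eq_left.1 this hx) 1
      rwa [map_one] at this))
  exact ⟨σ, fun j => y j, ⟨fun j => congrArg Subtype.val (hy.two j), fun g j =>
    (congrArg Subtype.val (hy.act g j)).trans (map_lin W.subtype _)⟩, fun j => (y j).2,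
    fun e => hv0 (Subtype.ext e)⟩

variable {D}

theorem core_aux {B : X →ₗ[W2 F] Y →ₗ[W2 F] Z} (hB : ∀ g x y, ρZ g (B x y) = B (ρX g x) (ρY g y))
    {σ σ' : F ≃+* F} {x : ι → X} {y : ι → Y} (hx : D.NatQ ρX σ x) (hy : D.NatQ ρY σ' y)
    (h : B (x D.bot) (y D.top) = 0) (i j : ι) : B (x i) (y j) = 0 := by
  have h1 := D.span
    { carrier := {p | B (lin σ x p) (y D.top) = 0}
      zero_mem' := by simp [lin_zero]
      add_mem' := fun h1 h2 => by
        simp only [Set.mem_ofPred_eq] at h1 h2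
        simp [lin_add hx.two, h1, h2] }
    fun u hu => by
      have := hB u (x D.bot) (y D.top)
      rw [h, map_zero, hx.act, hy.act, D.π_U u hu, lin_single] at this
      exact this.symm
  have h2 : ∀ p, B (lin σ x p) (y D.top) = 0 := fun p => by
    have : ∀ k, B (x k) (y D.top) = 0 := fun k => by simpa [lin_single] using h1 k
    simp [lin, this]
  have h3 := D.span
    { carrier := {r | ∀ p, B (lin σ x p) (lin σ' y r) = 0}
      zero_mem' := by simp [lin_zero]
      add_mem' := fun h1 h2 p => by simp [lin_add hy.two, h1 p, h2 p] }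
    fun u _ p => by
      have := hB (u * D.w) (lin σ x (D.π (u * D.w)⁻¹ *ᵥ p)) (y D.top)
      rw [h2, map_zero, hx.act_lin, hy.act, mulVec_mulVec, ← map_mul, mul_inv_cancel, map_one,
        one_mulVec, map_mul, ← mulVec_mulVec, D.π_w] at this
      exact this.symm
  simpa [lin_single] using h3 j (Pi.single i 1)

theorem core_zero [Finite Z] (hZ : Fpf ρZ) {B : X →ₗ[W2 F] Y →ₗ[W2 F] Z}
    (hB : ∀ g x y, ρZ g (B x y) = B (ρX g x) (ρY g y))
    {σ σ' : F ≃+* F} {x : ι → X} {y : ι → Y} (hx : D.NatQ ρX σ x) (hy : D.NatQ ρY σ' y)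
    (i j : ι) : B (x i) (y j) = 0 := by
  by_cases hσ : σ = σ'
  · subst hσ
    obtain ⟨s, hs⟩ := D.exists_ne
    have h1 : ∀ s, ρZ (D.h s) (B (x D.bot) (y D.top)) = B (x D.bot) (y D.top) := fun s => by
      rw [hB, hx.act, hy.act, D.π_h, D.π_h_bot, lin_smul, lin_smul, lin_single, lin_single,
        map_smul, map_smul, LinearMap.smul_apply, smul_smul, ← T_mul, ← map_mul, ← D.wt_mul]
      simp [D.wt_one]
    have := hZ _ (D.odd_h s) (D.h_ne_one hs) (B (x D.bot) (y D.top))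
    simp only [← map_pow D.h, h1, Finset.sum_const, Finset.card_range,
      ← Nat.cast_smul_eq_nsmul (W2 F)] at this
    exact core_aux hB hx hy ((isUnit_odd (D.odd_h s)).smul_eq_zero.1 this) i j
  have h0 : B (x D.top) (y D.top) = 0 := by
    by_contra h0
    obtain ⟨τ, hτ⟩ := D.exists_weight hZ h0 (χ := fun s => σ (D.wt s) * σ' (D.wt s))
      (fun u hu => by rw [hB, hx.act, hy.act, D.π_U u hu, lin_single, lin_single])
      (fun s => by
        rw [hB, hx.act, hy.act, D.π_h, lin_smul, lin_smul, lin_single, lin_single,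
          map_smul, map_smul, LinearMap.smul_apply, smul_smul, ← T_mul, mul_comm])
    have h1 : ∀ t, σ t * σ' t = τ t := fun t => by
      by_cases ht : t = 0
      · simp [ht]
      · obtain ⟨s, rfl⟩ := D.wt_surj t ht
        exact hτ s
    refine hσ (RingEquiv.ext fun t => ?_)
    have h2 := h1 t
    have h3 := h1 (t + 1)
    simp only [map_add, map_one] at h3
    grind
  obtain ⟨i₀, j₀, hij, hc⟩ := D.core σ σ' hσ
  have h1 : B (x i₀) (y j₀) = 0 := by
    by_contra hne
    obtain ⟨f, hf⟩ := exists_dual_ne_zero (F := F) hne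
    choose β hβ using fun k l => exists_eq_T_mul two_ne_zero' two_mul_two (y := f (B (x k) (y l)))
      (by rw [← smul_eq_mul, ← map_smul, ← map_smul, hy.two, map_zero, map_zero])
    have inj : ∀ t : F, T t * 2 = 0 → t = 0 := fun t ht =>
      T_smul_inj (E := W2 F) two_ne_zero' (by simpa using ht)
    refine hf ?_
    rw [hβ, hc β (inj _ (by rw [← hβ, h0, map_zero])) fun u hu => inj _ ?_, T_zero, zero_mul]
    have := hB (u * D.w) (x D.top) (y D.top)
    rw [h0, map_zero, hx.act, hy.act, map_mul, ← mulVec_mulVec, D.π_w] at this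
    have h2 := congrArg f this
    have h3 := fun (s : Finset ι) (p : ι → F) => map_sum (AddMonoidHom.mk'
      (fun t : F => T t * 2) (T_add_mul two_mul_two)) p s
    simp only [AddMonoidHom.mk'_apply] at h3
    simp only [lin, map_sum, map_smul, LinearMap.sum_apply, LinearMap.smul_apply, hβ, smul_eq_mul,
      map_zero, mulVec_single_one, col_apply, Finset.mul_sum] at h2
    simp only [h3, T_mul]
    rw [h2, Finset.sum_comm]
    exact Finset.sum_congr rfl fun _ _ => Finset.sum_congr rfl fun _ _ => by ring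
  rcases hij with ⟨rfl, rfl⟩ | ⟨rfl, rfl⟩
  · exact core_aux hB hx hy h1 i j
  · exact core_aux (B := B.flip) (fun g y x => hB g x y) hy hx h1 j i

variable (D)

include D in
theorem bilin_zero [Finite X] [Finite Y] [Finite Z] (hX : Fpf ρX) (hY : Fpf ρY) (hZ : Fpf ρZ)
    {B : X →ₗ[W2 F] Y →ₗ[W2 F] Z} (hB : ∀ g x y, ρZ g (B x y) = B (ρX g x) (ρY g y)) : B = 0 := by
  by_contra h0
  have : Finite (Y →ₗ[W2 F] Z) := Finite.of_injective _ DFunLike.coe_injective
  have e1 : ∀ g x, ρY.linHom ρZ g (B x) = B (ρX g x) := fun g x => LinearMap.ext fun y => by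
    simp [hB]
  obtain ⟨σ, β, hβ, -, hβ0⟩ := D.exists_natQ (ρX := ρY.linHom ρZ) (W := LinearMap.range B)
    (by rintro g _ ⟨x, rfl⟩; exact ⟨_, (e1 g x).symm⟩) (by rwa [Ne, LinearMap.range_eq_bot])
    (by rintro a ha h1 _ ⟨x, rfl⟩; simp only [e1]; rw [← map_sum, hX a ha h1, map_zero])
  set X' := Submodule.span (W2 F) (Set.range β)
  have hβ' : ∀ j, β j ∈ X' := fun j => Submodule.subset_span (Set.mem_range_self j)
  have : Finite (X' →ₗ[W2 F] Z) := Finite.of_injective _ DFunLike.coe_injective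
  let ρ' := (ρY.linHom ρZ).subrepresentation X' hβ.inv_span
  have e2 : ∀ g y, ρ'.linHom ρZ g (X'.subtype.flip y) = X'.subtype.flip (ρY g y) :=
    fun g y => LinearMap.ext fun b => by simp [ρ']
  obtain ⟨σ', γ, hγ, -, hγ0⟩ := D.exists_natQ (ρX := ρ'.linHom ρZ)
    (W := LinearMap.range X'.subtype.flip)
    (by rintro g _ ⟨x, rfl⟩; exact ⟨_, (e2 g x).symm⟩)
    (fun e => hβ0 (LinearMap.ext fun y =>
      LinearMap.congr_fun (LinearMap.congr_fun (LinearMap.range_eq_bot.1 e) y) ⟨_, hβ' _⟩))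
    (by rintro a ha h1 _ ⟨x, rfl⟩; simp only [e2]; rw [← map_sum, hY a ha h1, map_zero])
  have := core_zero (ρX := ρ'.linHom ρZ) (ρY := ρ') hZ (B := LinearMap.id) (fun g x y => by simp)
    hγ (y := fun j => ⟨β j, hβ' j⟩) (σ' := σ) ⟨fun j => Subtype.ext (hβ.two j), fun g j =>
      Subtype.ext ((hβ.act g j).trans (map_lin (v := fun j => ⟨β j, hβ' j⟩) X'.subtype _).symm)⟩ D.top
  refine hγ0 (LinearMap.ext fun ⟨b, hb⟩ => ?_)
  obtain ⟨p, rfl⟩ := exists_lin_of_mem_span σ hβ.two hb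
  have e3 : (⟨_, hb⟩ : X') = lin σ (fun j => ⟨β j, hβ' j⟩) p :=
    Subtype.ext (map_lin (v := fun j => ⟨β j, hβ' j⟩) X'.subtype _).symm
  simp only [LinearMap.id_apply] at this
  rw [e3, map_lin]
  simp [lin, this]

end Mod

section Int

variable {A A' : Type*} [AddCommGroup A] [AddCommGroup A']

/-- Extension of scalars from `ℤ`. -/
noncomputable def bc (F : Type*) [Field F] [CharP F 2] (ρ : Representation ℤ L A) :
    Representation (W2 F) L (W2 F ⊗[ℤ] A) :=
  (Module.End.baseChangeHom ℤ (W2 F) A : Module.End ℤ A →* _).comp ρ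

omit [Finite F] in
theorem bc_tmul (ρ : Representation ℤ L A) (g : L) (c : W2 F) (x : A) :
    bc F ρ g (c ⊗ₜ x) = c ⊗ₜ ρ g x := rfl

omit [Finite F] in
theorem fpf_bc {ρ : Representation ℤ L A} (h : Fpf ρ) : Fpf (bc F ρ) := fun a ha h1 v => by
  induction v with
  | zero => simp
  | tmul c x => simp only [bc_tmul]; rw [← tmul_sum, h a ha h1, tmul_zero]
  | add x y hx hy => simp only [map_add, Finset.sum_add_distrib, hx, hy, add_zero]

instance [Finite A] : Finite (W2 F ⊗[ℤ] A) := Module.finite_of_finite (W2 F)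

omit [Finite F] in
theorem eq_zero_of_tmul [Finite A] (h4 : ∀ x : A, 4 • x = 0) {x : A}
    (hx : (1 : W2 F) ⊗ₜ[ℤ] x = 0) : x = 0 := by
  by_contra h
  obtain ⟨f, hf⟩ := exists_addHom_ne_zero (F := F) h4 h
  exact hf (by simpa using congrArg (f.toIntLinearMap.liftBaseChange (W2 F)) hx)

variable (D : Datum L F ι)
include D

theorem two_nsmul_eq_zero [Finite A] {ρ : Representation ℤ L A} (h : Fpf ρ) {k : ℕ} {x : A}
    (hx : 2 ^ k • x = 0) : 2 • x = 0 := by
  let W := LinearMap.ker ((4 : ℕ) • LinearMap.id (R := ℤ) (M := A))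
  have hW : Inv ρ W := fun g y hy => by
    have : 4 • y = 0 := hy
    change 4 • ρ g y = 0
    rw [← map_nsmul, this, map_zero]
  have key : ∀ y : A, 4 • y = 0 → 2 • y = 0 := fun y hy =>
    congrArg Subtype.val (eq_zero_of_tmul (F := F) (A := W) (fun z => Subtype.ext z.2)
      (x := 2 • ⟨y, hy⟩) (by
        rw [two_smul, tmul_add, ← two_smul (W2 F)]
        exact D.two_smul_eq_zero (fpf_bc (Fpf.sub hW fun a ha h1 v _ => h a ha h1 v)) _))
  induction k generalizing x with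
  | zero => simp [show x = 0 by simpa using hx]
  | succ k ih => exact key x (by rw [← ih (x := 2 • x) (by rwa [smul_smul]), smul_smul]; rfl)

theorem bilin_int [Finite A] [Finite A'] {ρ : Representation ℤ L A} {ρ' : Representation ℤ L A'}
    (h : Fpf ρ) (h' : Fpf ρ') (h4 : ∀ x : A', 4 • x = 0) {B : A →ₗ[ℤ] A →ₗ[ℤ] A'}
    (hB : ∀ g x y, ρ' g (B x y) = B (ρ g x) (ρ g y)) (x y : A) : B x y = 0 := by
  have := D.bilin_zero (fpf_bc h) (fpf_bc h) (fpf_bc h')
    (B := LinearMap.BilinMap.baseChange (W2 F) B) (fun g x y => by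
      induction x with
      | zero => simp
      | add x x' h1 h2 => simp [h1, h2]
      | tmul c x =>
        induction y with
        | zero => simp
        | add y y' h1 h2 => simp only [map_add, h1, h2]
        | tmul d y => simp [bc_tmul, hB])
  refine eq_zero_of_tmul (F := F) h4 ?_
  simpa using LinearMap.congr_fun (LinearMap.congr_fun this (1 ⊗ₜ x)) (1 ⊗ₜ y)

end Int

end Datum

open Subgroup H69 H12
open scoped IsMulCommutative commutatorElement

theorem exists_conj_rep {G : Type*} [Group G] [Finite G] (hG : IsCIT G) (f : G →* L)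
    (hf : Function.Surjective f) (A : Subgroup G) [A.Normal] [IsMulCommutative A]
    (hA : IsPGroup 2 A) (hc : ∀ g ∈ f.ker, ∀ x ∈ A, g * x = x * g) :
    ∃ ρ : Representation ℤ L (Additive A), Fpf ρ ∧
      ∀ g x, ((ρ (f g) x).toMul : G) = g * x.toMul * g⁻¹ := by
  let φ : L →* MulAut A := f.liftOfSurjective hf ⟨MulAut.conjNormal, fun g hg =>
    MulEquiv.ext fun x => Subtype.ext (by simp [hc g hg x x.2])⟩
  let := MulDistribMulAction.compHom A φ
  have h1 : ∀ g x, ((Representation.ofMulDistribMulAction L A (f g) x).toMul : G) =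
      g * x.toMul * g⁻¹ := fun g x => by
    change ((φ (f g) x.toMul : A) : G) = _
    rw [MonoidHom.liftOfRightInverse_comp_apply]
    rfl
  refine ⟨_, fun a ha ha1 v => ?_, h1⟩
  generalize Representation.ofMulDistribMulAction L A = ρ at h1
  obtain ⟨g, rfl⟩ := hf a
  have h2 := Finset.sum_range_succ' (fun j => ρ (f g ^ j) v) (orderOf (f g))
  rw [Finset.sum_range_succ, pow_orderOf_eq_one, pow_zero, add_left_inj] at h2
  simp only [pow_succ', map_mul, Module.End.mul_apply] at h2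
  rw [← map_sum] at h2
  generalize ∑ j ∈ Finset.range (orderOf (f g)), ρ (f g ^ j) v = y at h2
  have h3 := h1 g y
  rw [← h2, eq_mul_inv_iff_mul_eq] at h3
  obtain ⟨k, hk⟩ := exists_odd_pow g
  by_contra hy
  obtain ⟨j, hj⟩ := isPGroup_iff_mem.1 hA _ y.toMul.2
  have := hG.eq_one_of_odd hk hj (fun e => hy (Subtype.ext e)) (Commute.pow_left h3.symm _).eq
  exact ha1 (eq_one_of_odd_of_pow ha (k := k) (by rw [← map_pow, this, map_one]))

/-- The theorems of Higman and Martineau. -/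
theorem Datum.ea_ker (D : Datum L F ι) {G : Type*} [Group G] [Finite G] (hG : IsCIT G)
    (f : G →* L) (hf : Function.Surjective f) (hR : IsPGroup 2 f.ker) : EA f.ker := by
  induction hn : Nat.card G using Nat.strong_induction_on generalizing G with | _ n ih => ?_
  have := Fact.mk Nat.prime_two
  by_cases h1 : f.ker = ⊥
  · rw [h1]; rintro x rfl; simp
  let Z := f.ker ⊓ centralizer (f.ker : Set G)
  have hZ : ∀ z ∈ Z, ∀ x ∈ f.ker, x * z = z * x := fun z hz x hx => hz.2 x hx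
  have : IsMulCommutative Z := ⟨⟨fun a b => Subtype.ext (hZ b b.2 a a.2.1)⟩⟩
  have hZ2 : IsPGroup 2 Z := hR.to_inf_left
  let f' := QuotientGroup.lift Z f inf_le_left
  have hf' : Function.Surjective f' := fun a => (hf a).elim fun g hg => ⟨g, hg⟩
  have hR' : IsPGroup 2 f'.ker := by
    rw [QuotientGroup.ker_lift]; exact hR.map _
  have hG' := hG.quotient Z hZ2
  have hE : EA f'.ker := ih _ (by
    have h2 := Z.card_mul_index
    have h3 := Z.one_lt_card_iff_ne_bot.2 (zOf_ne_bot hR h1)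
    have h4 : 0 < Z.index := Nat.card_pos (α := G ⧸ Z)
    change Z.index < n
    nlinarith) hG' f' hf' hR' rfl
  have : IsMulCommutative f'.ker := ⟨⟨fun a b => Subtype.ext (hE.comm a.2 b.2)⟩⟩
  obtain ⟨ρ, hρ, h2⟩ := exists_conj_rep hG f hf Z hZ2 fun g hg x hx => hZ x hx g hg
  obtain ⟨ρ', hρ', h3⟩ := exists_conj_rep hG' f' hf' f'.ker hR' fun g hg x hx => hE.comm hg hx
  have hZe : ∀ z : Additive Z, 2 • z = 0 := fun z =>
    (hZ2 z.toMul).elim fun k hk => D.two_nsmul_eq_zero hρ (k := k) hk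
  have hc : ∀ x ∈ f.ker, ∀ y ∈ f.ker, ⁅x, y⁆ ∈ Z := fun x hx y hy =>
    (QuotientGroup.eq_one_iff _).1 (by
      rw [← QuotientGroup.mk'_apply, map_commutatorElement, commutatorElement_eq_one_iff_mul_comm]
      exact hE.comm (V := f'.ker) hx hy)
  have hl : ∀ x ∈ f.ker, ∀ x' ∈ f.ker, ∀ y ∈ f.ker, ⁅x * x', y⁆ = ⁅x, y⁆ * ⁅x', y⁆ := by
    intro x hx x' hx' y hy
    calc ⁅x * x', y⁆ = x * ⁅x', y⁆ * x⁻¹ * ⁅x, y⁆ := by simp only [commutatorElement_def]; group
      _ = _ := by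
        rw [hZ _ (hc x' hx' y hy) x hx, mul_inv_cancel_right,
          hZ _ (hc x hx y hy) _ (hc x' hx' y hy).1]
  have hr : ∀ x ∈ f.ker, ∀ y ∈ f.ker, ∀ y' ∈ f.ker, ⁅x, y * y'⁆ = ⁅x, y⁆ * ⁅x, y'⁆ := by
    intro x hx y hy y' hy'
    calc ⁅x, y * y'⁆ = ⁅x, y⁆ * (y * ⁅x, y'⁆ * y⁻¹) := by simp only [commutatorElement_def]; group
      _ = _ := by rw [hZ _ (hc x hx y' hy') y hy, mul_inv_cancel_right]
  have hs : ∀ v : Additive f'.ker, ∃ x ∈ f.ker, (x : G ⧸ Z) = v.toMul := fun v => by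
    obtain ⟨x, hx⟩ := QuotientGroup.mk_surjective (v.toMul : G ⧸ Z)
    exact ⟨x, by have := v.toMul.2; rwa [← hx] at this, hx⟩
  choose s hs1 hs2 using hs
  have key : ∀ v v', ∀ x ∈ f.ker, ∀ y ∈ f.ker, (x : G ⧸ Z) = v.toMul → (y : G ⧸ Z) = v'.toMul →
      ⁅s v, s v'⁆ = ⁅x, y⁆ := by
    intro v v' x hx y hy e e'
    have a := QuotientGroup.eq.1 (e.trans (hs2 v).symm)
    have b := QuotientGroup.eq.1 (e'.trans (hs2 v').symm)
    rw [← mul_inv_cancel_left x (s v), ← mul_inv_cancel_left y (s v'),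
      hl x hx _ a.1 _ (mul_mem hy b.1), hr x hx y hy _ b.1,
      commutatorElement_eq_one_iff_mul_comm.2 (hZ _ b x hx),
      commutatorElement_eq_one_iff_mul_comm.2 (hZ _ a _ (mul_mem hy b.1)).symm, mul_one, mul_one]
  let B : Additive f'.ker →ₗ[ℤ] Additive f'.ker →ₗ[ℤ] Additive Z :=
    (AddMonoidHom.mk' (fun v => (AddMonoidHom.mk'
      (fun v' => Additive.ofMul (⟨⁅s v, s v'⁆, hc _ (hs1 v) _ (hs1 v')⟩ : Z))
      fun a b => Subtype.ext ((key _ _ _ (hs1 v) _ (mul_mem (hs1 a) (hs1 b)) (hs2 v)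
        (by rw [QuotientGroup.mk_mul, hs2, hs2]; rfl)).trans
          (hr _ (hs1 v) _ (hs1 a) _ (hs1 b)))).toIntLinearMap)
      fun a b => LinearMap.ext fun v => Subtype.ext
        ((key _ _ _ (mul_mem (hs1 a) (hs1 b)) _ (hs1 v)
          (by rw [QuotientGroup.mk_mul, hs2, hs2]; rfl) (hs2 v)).trans
          (hl _ (hs1 a) _ (hs1 b) _ (hs1 v)))).toIntLinearMap
  have hB : ∀ v v', ((B v v').toMul : G) = ⁅s v, s v'⁆ := fun _ _ => rfl
  have h0 := D.bilin_int hρ' hρ (fun z => by rw [show 4 = 2 * 2 from rfl, mul_smul, hZe]) (B := B)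
    fun a v v' => by
      obtain ⟨g, rfl⟩ := hf a
      refine Subtype.ext ((h2 g _).trans ((key _ _ _ (f.normal_ker.conj_mem _ (hs1 v) g) _
        (f.normal_ker.conj_mem _ (hs1 v') g) ?_ ?_).trans ?_).symm)
      · rw [QuotientGroup.mk_mul, QuotientGroup.mk_mul, hs2]; exact (h3 g v).symm
      · rw [QuotientGroup.mk_mul, QuotientGroup.mk_mul, hs2]; exact (h3 g v').symm
      · rw [hB, conjugate_commutatorElement]
  intro x hx
  have hxZ : x ∈ Z := ⟨hx, fun y hy => commutatorElement_eq_one_iff_mul_comm.1 (by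
    rw [← key (Additive.ofMul ⟨y, hy⟩) (Additive.ofMul ⟨x, hx⟩) y hy x hx rfl rfl, ← hB, h0]
    rfl)⟩
  simpa [two_nsmul] using congrArg (fun z : Additive Z => (z.toMul : G)) (hZe (Additive.ofMul ⟨x, hxZ⟩))

end Cfsg.Agent.H25
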