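import Cfsg.Agent.H25.FpfRep

/-!
Fixed-point-free modules for `SL₂(2ⁿ)` and `Sz(2ⁿ)` over `W2 F`: natural submodules, absence of
non-split extensions, and exponent two.
-/

set_option autoImplicit false

namespace Cfsg.Agent.H25

open Matrix W2

variable {L : Type*} [Group L] {F : Type*} [Field F] [CharP F 2] [Finite F]
  {ι : Type*} [Fintype ι] [DecidableEq ι] {E : Type*} [AddCommGroup E] [Module (W2 F) E]

/-- Linear combinations with twisted coefficients. -/
def lin (σ : F ≃+* F) (v : ι → E) (p : ι → F) : E := ∑ i, T (σ (p i)) • v i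

section Lin

variable {σ : F ≃+* F} {v : ι → E}

omit [DecidableEq ι] in
theorem lin_add (hv : ∀ j, (2 : W2 F) • v j = 0) (p q : ι → F) :
    lin σ v (p + q) = lin σ v p + lin σ v q := by
  simp [lin, T_add_smul (hv _), Finset.sum_add_distrib]

omit [DecidableEq ι] [Finite F] in
theorem lin_smul (t : F) (p : ι → F) : lin σ v (t • p) = T (σ t) • lin σ v p := by
  simp [lin, T_mul, Finset.smul_sum, mul_smul]

omit [DecidableEq ι] [Finite F] in
theorem lin_zero : lin σ v 0 = 0 := by simp [lin]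

omit [Finite F] in
theorem lin_single (j : ι) : lin σ v (Pi.single j 1) = v j := by
  rw [lin, Finset.sum_eq_single j] <;> simp +contextual

omit [DecidableEq ι] [Finite F] in
theorem two_smul_lin (hv : ∀ j, (2 : W2 F) • v j = 0) (p : ι → F) :
    (2 : W2 F) • lin σ v p = 0 := by
  simp [lin, Finset.smul_sum, smul_comm (2 : W2 F) (T _), hv]

omit [DecidableEq ι] [Finite F] in
theorem map_lin {E' : Type*} [AddCommGroup E'] [Module (W2 F) E'] (f : E →ₗ[W2 F] E')
    (p : ι → F) : f (lin σ v p) = lin σ (fun i => f (v i)) p := by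
  simp [lin]

omit [DecidableEq ι] in
theorem lin_sum (hv : ∀ j, (2 : W2 F) • v j = 0) {κ : Type*} (s : Finset κ) (p : κ → ι → F) :
    lin σ v (∑ k ∈ s, p k) = ∑ k ∈ s, lin σ v (p k) :=
  map_sum (AddMonoidHom.mk' (lin σ v) (lin_add hv)) p s

omit [DecidableEq ι] in
theorem lin_T {c : W2 F} (hc : 2 * c = 0) (q p : ι → F) :
    lin σ (fun i => T (σ (q i)) * c) p = T (σ (q ⬝ᵥ p)) * c := by
  have := map_sum (AddMonoidHom.mk' (fun x => T (σ x) * c) fun x y => by
    simp only [map_add, T_add_mul hc]) (fun i => q i * p i) Finset.univ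
  simp only [AddMonoidHom.mk'_apply] at this
  simp only [lin, dotProduct, this, map_mul, T_mul, smul_eq_mul]
  exact Finset.sum_congr rfl fun i _ => by ring

omit [DecidableEq ι] [Finite F] in
theorem lin_mem {W : Submodule (W2 F) E} (h : ∀ j, v j ∈ W) (p : ι → F) : lin σ v p ∈ W :=
  W.sum_mem fun i _ => W.smul_mem _ (h i)

omit [DecidableEq ι] in
theorem exists_lin_of_mem_span (σ : F ≃+* F) (hv : ∀ j, (2 : W2 F) • v j = 0) {x : E}
    (hx : x ∈ Submodule.span (W2 F) (Set.range v)) : ∃ p, x = lin σ v p := by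
  obtain ⟨c, rfl⟩ := (Submodule.mem_span_range_iff_exists_fun _).1 hx
  exact ⟨fun i => σ.symm (c i).a, Finset.sum_congr rfl fun i _ => by simp [← smul_eq_T (hv i)]⟩

end Lin

namespace Datum

variable (D : Datum L F ι) {ρ : Representation (W2 F) L E}

/-- A family of vectors transforming like the standard basis of a twisted natural module. -/
structure NatQ (ρ : Representation (W2 F) L E) (σ : F ≃+* F) (v : ι → E) : Prop where
  two : ∀ j, (2 : W2 F) • v j = 0
  act : ∀ g j, ρ g (v j) = lin σ v (D.π g *ᵥ Pi.single j 1)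

variable {D}

theorem NatQ.act_lin {σ : F ≃+* F} {v : ι → E} (h : D.NatQ ρ σ v) (g : L) (p : ι → F) :
    ρ g (lin σ v p) = lin σ v (D.π g *ᵥ p) := by
  rw [map_lin, lin]
  simp only [h.act, ← lin_smul, ← lin_sum h.two, ← mulVec_smul, ← mulVec_sum]
  congr 2
  ext i
  simp [Finset.sum_apply, Pi.single_apply]

omit [Finite F] in
theorem NatQ.inv_span {σ : F ≃+* F} {v : ι → E} (h : D.NatQ ρ σ v) :
    Inv ρ (Submodule.span (W2 F) (Set.range v)) := fun g => Submodule.span_le.2 (by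
  rintro _ ⟨j, rfl⟩
  refine Submodule.mem_comap.2 ?_
  rw [h.act]
  exact lin_mem (fun j => Submodule.subset_span (Set.mem_range_self j)) _)

variable (D)

/-- Highest weight vectors modulo an invariant submodule. -/
theorem exists_fix_top [Finite E] {M : Submodule (W2 F) E} (hM : Inv ρ M) (hne : M ≠ ⊤) :
    ∃ v, v ∉ M ∧ (∀ x ∈ D.U, ρ x v - v ∈ M) ∧
      ∃ χ : Fˣ → F, ∀ s, ρ (D.h s) v = T (χ s) • v := by
  classical
  have := Fact.mk Nat.prime_two
  have := Fintype.ofFinite F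
  let : MulAction D.U (E ⧸ M) :=
    { smul := fun x v => ρ.quotient M hM x v
      one_smul := fun v => by change ρ.quotient M hM 1 v = v; rw [map_one]; rfl
      mul_smul := fun x y v => by
        change ρ.quotient M hM (x * y) v = ρ.quotient M hM x (ρ.quotient M hM y v)
        rw [map_mul]; rfl }
  have hfin : Finite (E ⧸ M) := Finite.of_surjective _ M.mkQ_surjective
  obtain ⟨v₀, hv₀⟩ : ∃ v₀ : E ⧸ M, v₀ ≠ 0 := by
    have := Submodule.Quotient.nontrivial_iff.2 hne
    exact _root_.exists_ne 0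
  have h2 : 2 ∣ Nat.card (E ⧸ M) := by
    have h4 : 2 ^ 2 • v₀ = 0 := by
      rw [← Nat.cast_smul_eq_nsmul (W2 F), ← two_smul_two_smul (F := F) v₀, smul_smul]
      norm_num
    obtain ⟨k, -, hk⟩ := (Nat.dvd_prime_pow Nat.prime_two).1
      (addOrderOf_dvd_of_nsmul_eq_zero h4)
    refine (hk ▸ dvd_pow_self 2 ?_).trans (addOrderOf_dvd_natCard v₀)
    rintro rfl
    exact hv₀ (by simpa using hk)
  obtain ⟨b, hb, hb0⟩ := D.hU.exists_fixed_point_of_prime_dvd_card_of_fixed_point (E ⧸ M) h2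
    (a := 0) (fun x => map_zero (ρ.quotient M hM x))
  obtain ⟨v, rfl⟩ := M.mkQ_surjective b
  have hv : ∀ x ∈ D.U, ρ x v - v ∈ M := fun x hx => (Submodule.Quotient.eq M).1 (hb ⟨x, hx⟩)
  have hsum : ∑ i ∈ Finset.range (Fintype.card F - 1), ∑ s : Fˣ,
      T (((s⁻¹ : Fˣ) : F) ^ i) • ρ (D.h s) v = ((Fintype.card F - 1 : ℕ) : W2 F) • v := by
    rw [Finset.sum_comm, Finset.sum_eq_single 1]
    · simp [Nat.cast_smul_eq_nsmul]
    · intro s _ hs
      have h1 : IsUnit (T ((s⁻¹ : Fˣ) : F) - 1) := by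
        rw [sub_eq_add_neg]
        refine isUnit_of_a fun e => hs (inv_eq_one.1 (Units.ext ?_))
        simp only [add_a, T_a, neg_a, one_a] at e
        rw [Units.val_one]
        grind
      have := mul_geom_sum (T ((s⁻¹ : Fˣ) : F)) (Fintype.card F - 1)
      rw [← T_pow, FiniteField.pow_card_sub_one_eq_one _ (Units.ne_zero _), T_one, sub_self,
        h1.mul_right_eq_zero] at this
      simp only [T_pow]
      rw [← Finset.sum_smul, this, zero_smul]
    · simp
  obtain ⟨i, hi⟩ : ∃ i : ℕ, ∑ s : Fˣ, T (((s⁻¹ : Fˣ) : F) ^ i) • ρ (D.h s) v ∉ M := by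
    by_contra hn
    push Not at hn
    have h1 := hsum ▸ M.sum_mem fun i _ => hn i
    obtain ⟨u, hu⟩ := isUnit_odd (F := F) (Nat.Even.sub_odd Fintype.card_pos
      (Nat.even_iff.2 ((FiniteField.even_card_iff_char_two).1 (ringChar.eq F 2))) odd_one)
    rw [← hu] at h1
    exact hb0 ((Submodule.Quotient.mk_eq_zero M).2 ((M.smul_mem_iff' u).1 h1)).symm
  refine ⟨_, hi, fun x hx => ?_, fun t => (t : F) ^ i, fun t => ?_⟩
  · rw [map_sum, ← Finset.sum_sub_distrib]
    refine M.sum_mem fun s _ => ?_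
    rw [map_smul, ← smul_sub]
    have := hM (D.h s) (hv _ (D.conj_mem s⁻¹ x hx))
    refine M.smul_mem _ ?_
    simpa [← Module.End.mul_apply, ← map_mul, ← mul_assoc] using this
  · rw [map_sum, Finset.smul_sum]
    refine Fintype.sum_equiv (Equiv.mulLeft t) _ _ fun s => ?_
    simp only [map_smul, Equiv.coe_mulLeft, map_mul, Module.End.mul_apply, smul_smul, ← T_mul,
      ← mul_pow]
    congr 3
    simp [mul_comm]

theorem exists_fix [Finite E] {M₀ M : Submodule (W2 F) E} (h₀ : Inv ρ M₀) (hM : Inv ρ M)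
    (hne : ¬ M ≤ M₀) : ∃ v ∈ M, v ∉ M₀ ∧ (∀ x ∈ D.U, ρ x v - v ∈ M₀) ∧
      ∃ χ : Fˣ → F, ∀ s, ρ (D.h s) v = T (χ s) • v := by
  obtain ⟨v, h1, h2, χ, h3⟩ := D.exists_fix_top (hM.comap_subtype h₀)
    (fun e => hne (Submodule.comap_subtype_eq_top.1 e))
  exact ⟨v, v.2, h1, h2, χ, fun s => congrArg Subtype.val (h3 s)⟩

theorem exists_pre {M : Submodule (W2 F) E} (hM : Inv ρ M) {v : E} (hv : v ∈ M)
    {f : E →ₗ[W2 F] W2 F} {σ : F ≃+* F} {c : W2 F} (hc : 2 * c = 0)
    (hf : ∀ g, f (ρ g v) = T (σ (D.π g D.bot D.top)) * c) :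
    ∃ y : ι → E, (∀ j, y j ∈ M) ∧ (∀ g j, f (ρ g (y j)) = T (σ (D.π g D.bot j)) * c) ∧
      (∀ j, (2 : W2 F) • y j ∈ coker ρ f) ∧ y D.top - v ∈ coker ρ f ∧
      ∀ g j, ρ g (y j) - lin σ y (D.π g *ᵥ Pi.single j 1) ∈ coker ρ f := by
  have := D.span
    { carrier := {p | ∃ y ∈ M, ∀ g, f (ρ g y) = T (σ ((D.π g *ᵥ p) D.bot)) * c}
      zero_mem' := ⟨0, M.zero_mem, by simp⟩
      add_mem' := by
        rintro p q ⟨y, hy, h1⟩ ⟨z, hz, h2⟩
        exact ⟨y + z, M.add_mem hy hz, fun g => by simp [h1, h2, mulVec_add, T_add_mul hc]⟩ }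
    fun x _ => ⟨ρ (x * D.w) v, hM _ hv, fun g => by
      rw [← Module.End.mul_apply, ← map_mul, hf, ← D.π_w, mulVec_mulVec, mulVec_mulVec, ← map_mul,
        ← map_mul, mul_assoc, entry_eq]⟩
  choose y h1 h2 using this
  have h3 : ∀ g j, f (ρ g (y j)) = T (σ (D.π g D.bot j)) * c := fun g j => by simpa using h2 j g
  refine ⟨y, h1, h3, fun j => mem_coker.2 fun g => ?_, mem_coker.2 fun g => ?_,
    fun g j => mem_coker.2 fun g' => ?_⟩
  · rw [map_smul, map_smul, h3, smul_eq_mul, mul_left_comm, hc, mul_zero]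
  · rw [map_sub, map_sub, h3, hf, sub_self]
  · rw [map_sub, map_sub, map_lin, map_lin, ← Module.End.mul_apply, ← map_mul, h3]
    simp only [h3]
    rw [lin_T hc, map_mul, sub_eq_zero]
    simp [mul_apply, dotProduct]

/-- A highest weight vector paired with a lowest weight functional spans a natural module. -/
theorem exists_nat (hρ : Fpf ρ) {M : Submodule (W2 F) E} (hM : Inv ρ M) {v : E} (hv : v ∈ M)
    (hvU : ∀ x ∈ D.U, ρ x v = v) {χ : Fˣ → F} (hχ : ∀ s, ρ (D.h s) v = T (χ s) • v)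
    {f : E →ₗ[W2 F] W2 F} (hfU : ∀ x ∈ D.U, ρ.dual x f - f ∈ M.dualAnnihilator) {ψ : Fˣ → F}
    (hψ : ∀ s, ρ.dual (D.h s) f = T (ψ s) • f) (hne : v ≠ 0) (hco : M ⊓ coker ρ f = ⊥) :
    ∃ (σ : F ≃+* F) (c : W2 F) (y : ι → E), D.NatQ ρ σ y ∧ y D.top = v ∧ (∀ j, y j ∈ M) ∧
      (∀ s, ψ s = σ (D.wt s)) ∧ (∀ s, χ s = σ (D.wt s)) ∧ c ≠ 0 ∧ 2 * c = 0 ∧
      ∀ g j, f (ρ g (y j)) = T (σ (D.π g D.bot j)) * c := by
  have key : ∀ x ∈ M, x ∈ coker ρ f → x = 0 := fun x h1 h2 =>
    (Submodule.mem_bot _).1 (hco ▸ Submodule.mem_inf.2 ⟨h1, h2⟩)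
  obtain ⟨σ, h1, h2, h3, h4, h5⟩ := D.biInv (hρ.fn f v) (ψ := ψ) (χ := χ)
    (fun x hx g => by
      have := (Submodule.mem_dualAnnihilator _).1 (hfU _ (inv_mem hx)) _ (hM g hv)
      simpa [Module.Dual.transpose_apply, sub_eq_zero] using this)
    (fun x hx g => by simp [hvU x hx])
    (fun s g => by simpa [Module.Dual.transpose_apply] using LinearMap.congr_fun (hψ s) (ρ g v))
    (fun s g => by simp [hχ])
    (by
      by_contra hn
      push Not at hn
      exact hne (key v hv (mem_coker.2 hn)))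
  obtain ⟨y, a1, a2, a3, a4, a5⟩ := D.exists_pre hM hv h4 h5
  exact ⟨σ, _, y, ⟨fun j => key _ (M.smul_mem _ (a1 j)) (a3 j), fun g j => sub_eq_zero.1
    (key _ (M.sub_mem (hM g (a1 j)) (lin_mem a1 _)) (a5 g j))⟩,
    sub_eq_zero.1 (key _ (M.sub_mem (a1 _) hv) a4), a1, h1, h2, h3, h4, a2⟩

theorem exists_lift {τ σ : F ≃+* F} {v : ι → E} (hv : D.NatQ ρ τ v) {f : E →ₗ[W2 F] W2 F}
    {c : W2 F} (hc : c ≠ 0) (hc2 : 2 * c = 0)
    (hf : ∀ g j, f (ρ g (v j)) = T (τ (D.π g D.bot j)) * c) {v₀ : E}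
    (hχ : ∀ s, ρ (D.h s) v₀ = T (σ (D.wt s)) • v₀)
    (hU : ∀ x ∈ D.U, ρ x v₀ - v₀ ∈ Submodule.span (W2 F) (Set.range v)) :
    ∃ e η, (∀ s, ρ (D.h s) (v₀ + lin τ v e) = T (σ (D.wt s)) • (v₀ + lin τ v e)) ∧
      (∀ x ∈ D.U, ρ x (v₀ + lin τ v e) = v₀ + lin τ v e + T (τ (η x)) • v D.top) ∧
      ((∀ x ∈ D.U, η x = 0) ∨ D.Bad (σ.trans τ.symm) η) := by
  classical
  have h2 : ∀ p, lin τ v p + lin τ v p = 0 := fun p => by
    rw [← two_smul (W2 F), two_smul_lin hv.two]
  have inj : ∀ p q, lin τ v p = lin τ v q → p = q := fun p q e => by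
    have : p + q = 0 := D.eq_zero_of_rows fun g => by
      have h1 := congrArg (fun x => f (ρ g x)) (show lin τ v (p + q) = 0 by
        rw [lin_add hv.two, e, h2])
      simp only [map_lin, hf, lin_T hc2, map_zero] at h1
      exact τ.injective (T_smul_inj (E := W2 F) hc (by rw [map_zero, T_zero, zero_smul]; exact h1))
    ext i
    have := congrFun this i
    simp only [Pi.add_apply, Pi.zero_apply] at this
    grind
  have : ∀ x, ∃ p, x ∈ D.U → ρ x v₀ = v₀ + lin τ v p := fun x => by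
    by_cases hx : x ∈ D.U
    · obtain ⟨p, hp⟩ := exists_lin_of_mem_span τ hv.two (hU x hx)
      exact ⟨p, fun _ => by rw [← hp, add_sub_cancel]⟩
    · exact ⟨0, fun h => absurd h hx⟩
  choose d hd using this
  obtain ⟨e, η, a1, a2, a3⟩ := D.lift (σ.trans τ.symm) d
    (fun x hx y hy => inj _ _ (by
      have := hd _ (mul_mem hx hy)
      rw [map_mul, Module.End.mul_apply, hd y hy, map_add, hd x hx, hv.act_lin, add_assoc] at this
      rw [lin_add hv.two]
      exact (add_left_cancel this).symm))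
    (fun s x hx => inj _ _ (by
      have := congrArg (ρ (D.h s)) (hd x hx)
      rw [← Module.End.mul_apply, ← map_mul, ← inv_mul_cancel_right (D.h s * x) (D.h s), map_mul,
        Module.End.mul_apply, hχ, map_smul, hd _ (D.conj_mem s x hx), map_add, hχ, smul_add,
        hv.act_lin] at this
      rw [lin_smul]
      simpa using this))
  refine ⟨e, η, fun s => ?_, fun x hx => ?_, a3⟩
  · rw [map_add, hχ, hv.act_lin, a1, lin_smul, smul_add]; simp
  · have := congrArg (lin τ v) (a2 x hx)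
    rw [lin_add hv.two, lin_add hv.two, lin_smul, lin_single] at this
    rw [map_add, hd x hx, hv.act_lin]
    have h3 := h2 (D.π x *ᵥ e)
    have h4 := h2 e
    linear_combination (norm := abel1) this + h3 - h4

include D in
/-- There is no uniserial fixed-point-free module of length two. -/
theorem not_uniserial [Finite E] (hρ : Fpf ρ) {M : Submodule (W2 F) E} (hM : Inv ρ M)
    (h0 : M ≠ ⊥) (h1 : M ≠ ⊤) (hW : ∀ W, Inv ρ W → W = ⊥ ∨ W = M ∨ W = ⊤) : False := by
  have : Finite (Module.Dual (W2 F) E) := Finite.of_injective _ DFunLike.coe_injective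
  have hM' := hM.dualAnn
  have hbot : Inv ρ ⊥ := fun _ => bot_le
  have htop : Inv ρ ⊤ := fun _ _ _ => trivial
  obtain ⟨v₁, hv₁, hv₁0, hv₁U, χ₁, hχ₁⟩ := D.exists_fix hbot hM (by simpa using h0)
  obtain ⟨v₀, hv₀, hv₀U, χ₀, hχ₀⟩ := D.exists_fix_top hM h1
  obtain ⟨f₀, hf₀, hf₀U, ψ₀, hψ₀⟩ := D.exists_fix_top hM' (fun e => by
    obtain ⟨f, hf⟩ := exists_dual_ne_zero (F := F) hv₁0
    exact hf ((Submodule.mem_dualAnnihilator _).1 (e ▸ Submodule.mem_top) _ hv₁))
  obtain ⟨f₁, hf₁, hf₁0, hf₁U, ψ₁, hψ₁⟩ := D.exists_fix (ρ := ρ.dual) (M₀ := ⊥) (fun _ => bot_le) hM'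
    (fun e => by
      obtain ⟨f, hf, hf'⟩ := exists_dual_of_notMem hv₀
      exact hf' (by rw [(Submodule.mem_bot _).1 (e hf)]; rfl))
  simp only [Submodule.mem_bot, sub_eq_zero] at hv₁0 hv₁U hf₁0 hf₁U
  have co : ∀ f : Module.Dual (W2 F) E, f ∉ M.dualAnnihilator → coker ρ f = ⊥ := fun f hf => by
    have : ¬ M ≤ coker ρ f := fun h => hf ((Submodule.mem_dualAnnihilator _).2 fun x hx => by
      simpa using mem_coker.1 (h hx) 1)
    rcases hW _ (inv_coker f) with h | h | h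
    · exact h
    · exact absurd h.ge this
    · exact absurd (h ▸ le_top) this
  have co' : ∀ f ∈ M.dualAnnihilator, f ≠ 0 → coker ρ f = M := fun f hf hf0 => by
    have : M ≤ coker ρ f := fun x hx => mem_coker.2 fun g =>
      (Submodule.mem_dualAnnihilator _).1 hf _ (hM g hx)
    rcases hW _ (inv_coker f) with h | h | h
    · exact absurd (le_bot_iff.1 (h ▸ this)) h0
    · exact h
    · exact absurd (LinearMap.ext fun x => by
        simpa using mem_coker.1 (h ▸ Submodule.mem_top : x ∈ coker ρ f) 1) hf0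
  obtain ⟨τ, c, v, hv, rfl, hvM, hτ, -, hc, hc2, hfv⟩ := D.exists_nat hρ hM hv₁ hv₁U hχ₁ hf₀U hψ₀
    hv₁0 (by rw [co f₀ hf₀, inf_bot_eq])
  have hspan : Submodule.span (W2 F) (Set.range v) = M := by
    have hle : Submodule.span (W2 F) (Set.range v) ≤ M :=
      Submodule.span_le.2 (by rintro _ ⟨j, rfl⟩; exact hvM j)
    rcases hW _ hv.inv_span with h | h | h
    · exact absurd (Submodule.span_eq_bot.1 h _ ⟨_, rfl⟩) hv₁0
    · exact h
    · exact absurd (eq_top_iff.2 (h ▸ hle)) h1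
  obtain ⟨σ, c', f, hf, rfl, hfM, hσ, -, hc', hc2', hvf⟩ := D.exists_nat hρ.dual hM' hf₁ hf₁U hψ₁
    (f := Module.Dual.eval _ _ v₀) (ψ := χ₀)
    (fun x hx => (Submodule.mem_dualAnnihilator _).2 fun g hg => by
      simpa [Module.Dual.transpose_apply] using
        (Submodule.mem_dualAnnihilator _).1 hg _ (hv₀U x hx))
    (fun s => LinearMap.ext fun g => by simp [Module.Dual.transpose_apply, hχ₀]) hf₁0
    (eq_bot_iff.2 fun g hg => by
      by_contra hg0
      refine hv₀ (co' g hg.1 hg0 ▸ mem_coker.2 fun x => ?_)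
      simpa [Module.Dual.transpose_apply] using mem_coker.1 hg.2 x⁻¹)
  simp only [Module.Dual.eval_apply, dual_app] at hvf
  have hspan' : M.dualAnnihilator ≤ Submodule.span (W2 F) (Set.range f) := by
    obtain ⟨y, -, a2, a3, a4, a5⟩ := D.exists_pre htop (v := v₀) trivial (f := f D.top) (σ := σ) hc2'
      fun g => by rw [← D.entry_inv, ← hvf, inv_inv]
    rw [co' _ hf₁ hf₁0] at a3 a4 a5
    have hy := D.span
      { carrier := {p | ∀ j, lin σ f p (y j) = T (σ (p (D.rev j))) * c'}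
        zero_mem' := fun j => by simp [lin_zero]
        add_mem' := fun h1 h2 j => by simp [lin_add hf.two, h1 j, h2 j, T_add_mul hc2'] }
      fun x _ j => by
        rw [← D.π_w, mulVec_mulVec, ← map_mul, ← hf.act, dual_app, a2, D.π_inv, D.rev_bot]
        simp
    have htop' : Submodule.span (W2 F) (Set.range y) ⊔ M = ⊤ := by
      have hy' : ∀ j, y j ∈ Submodule.span (W2 F) (Set.range y) := fun j =>
        Submodule.subset_span (Set.mem_range_self j)
      rcases hW (Submodule.span (W2 F) (Set.range y) ⊔ M) (fun g => sup_le (Submodule.span_le.2 (by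
        rintro _ ⟨j, rfl⟩
        refine Submodule.mem_comap.2 ?_
        rw [← add_sub_cancel (lin σ y (D.π g *ᵥ Pi.single j 1)) (ρ g (y j))]
        exact Submodule.add_mem_sup (lin_mem hy' _) (a5 g j)))
        fun x hx => Submodule.mem_sup_right (hM g hx)) with h | h | h
      · exact absurd (le_bot_iff.1 (h ▸ le_sup_right)) h0
      · exact absurd (sub_sub_cancel (y D.top) v₀ ▸
          M.sub_mem (h ▸ Submodule.mem_sup_left (hy' D.top)) a4) hv₀
      · exact h
    intro g hg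
    have hg' := (Submodule.mem_dualAnnihilator _).1 hg
    choose t ht using fun j => exists_eq_T_mul hc' hc2' (y := g (y j))
      (by rw [← smul_eq_mul, ← map_smul, hg' _ (a3 j)])
    have : g = lin σ f fun i => σ.symm (t (D.rev.symm i)) := by
      refine LinearMap.eqLocus_eq_top.1 (eq_top_iff.2 (htop' ▸ sup_le
        (Submodule.span_le.2 ?_) fun x hx => ?_))
      · rintro _ ⟨j, rfl⟩
        have := map_lin (σ := σ) (v := f) (Module.Dual.eval _ _ (y j))
          fun i => σ.symm (t (D.rev.symm i))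
        have hy' : ∀ i, f i (y j) = T (σ (Pi.single (M := fun _ => F) (D.rev j) 1 i)) * c' :=
          fun i => by simpa [lin_single, Pi.single_apply, eq_comm] using hy i j
        simp only [Module.Dual.eval_apply, hy', lin_T hc2'] at this
        change g (y j) = _
        rw [this, ht]
        simp
      · change g x = _
        rw [hg' x hx, (Submodule.mem_dualAnnihilator _).1 (lin_mem hfM _) x hx]
    exact this ▸ lin_mem (fun j => Submodule.subset_span (Set.mem_range_self j)) _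
  obtain ⟨e, η, a1, a2, a3⟩ := D.exists_lift hv hc hc2 hfv (σ := σ) (fun s => hσ s ▸ hχ₀ s)
    (hspan ▸ hv₀U)
  obtain ⟨e', η', b1, b2, b3⟩ := D.exists_lift hf (f := Module.Dual.eval _ _ v₀) hc' hc2' hvf
    (σ := τ) (fun s => hτ s ▸ hψ₀ s) fun x hx => hspan' (hf₀U x hx)
  have hu : v₀ + lin τ v e ∉ M := fun h => hv₀ ((M.add_mem_iff_left (lin_mem hvM _)).1 h)
  have hk : f₀ + lin σ f e' ∉ M.dualAnnihilator := fun h =>
    hf₀ ((Submodule.add_mem_iff_left _ (lin_mem hfM _)).1 h)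
  have hkv : ∀ g, (f₀ + lin σ f e') (ρ g (v D.top)) = T (τ (D.π g D.bot D.top)) * c := fun g => by
    rw [LinearMap.add_apply, hfv,
      (Submodule.mem_dualAnnihilator _).1 (lin_mem hfM _) _ (hM g hv₁), add_zero]
  have hfu : ∀ g, f D.top (ρ g⁻¹ (v₀ + lin τ v e)) = T (σ (D.π g D.bot D.top)) * c' := fun g => by
    rw [map_add, map_add, hvf,
      (Submodule.mem_dualAnnihilator _).1 hf₁ _ (hM _ (lin_mem hvM _)), add_zero]
  generalize v₀ + lin τ v e = u at *
  generalize f₀ + lin σ f e' = k at *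
  have l1 : ∀ s g, k (ρ ((D.h s)⁻¹ * g) u) = T (τ (D.wt s)) * k (ρ g u) := fun s g => by
    simpa [Module.Dual.transpose_apply] using LinearMap.congr_fun (b1 s) (ρ g u)
  have r1 : ∀ s g, k (ρ (g * D.h s) u) = T (σ (D.wt s)) * k (ρ g u) := fun s g => by simp [a1]
  have l2 : ∀ x ∈ D.U, ∀ g, k (ρ (g * x)⁻¹ u) =
      k (ρ g⁻¹ u) + T (σ (η' x * D.π g D.bot D.top)) * c' := fun x hx g => by
    have := LinearMap.congr_fun (b2 x hx) (ρ g⁻¹ u)
    simp only [dual_app, LinearMap.add_apply, LinearMap.smul_apply, hfu, smul_eq_mul] at this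
    simp [this, T_mul, mul_assoc]
  have r2 : ∀ x ∈ D.U, ∀ g, k (ρ (g * x) u) =
      k (ρ g u) + T (τ (η x * D.π g D.bot D.top)) * c := fun x hx g => by
    simp [a2 x hx, hkv, T_mul, mul_assoc]
  have l3 : (∀ x ∈ D.U, η' x = 0) → ∀ x ∈ D.U, ∀ g, k (ρ (x * g) u) = k (ρ g u) :=
    fun h x hx g => by simpa [h _ (inv_mem hx)] using l2 x⁻¹ (inv_mem hx) g⁻¹
  have r3 : (∀ x ∈ D.U, η x = 0) → ∀ x ∈ D.U, ∀ g, k (ρ (g * x) u) = k (ρ g u) :=
    fun h x hx g => by rw [r2 x hx, h x hx]; simp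
  obtain ⟨z1, z2⟩ : (∀ x ∈ D.U, η x = 0) ∧ ∀ x ∈ D.U, η' x = 0 := by
    rcases a3 with a3 | a3 <;> rcases b3 with b3 | b3
    · exact ⟨a3, b3⟩
    · exact ⟨a3, D.final σ _ η' _ c' b3 hc' hc2' (hρ.fn k u).inv
        (fun x hx g => by rw [_root_.mul_inv_rev, r3 a3 _ (inv_mem hx)])
        (fun s g => by rw [_root_.mul_inv_rev, inv_inv, r1])
        (fun s g => by rw [_root_.mul_inv_rev, l1]; simp) l2⟩
    · exact ⟨D.final τ _ η _ c a3 hc hc2 (hρ.fn k u) (l3 b3) l1
        (fun s g => by rw [r1]; simp) r2, b3⟩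
    · exact (D.asym _ _ _ _ (by simp) a3 b3).elim
  obtain ⟨σ', c1, -, -, c4, c5⟩ := D.biInv (hρ.fn k u) (l3 z2) (r3 z1) l1 r1 (by
    by_contra hn
    push Not at hn
    exact hu ((Submodule.mem_bot _).1 (co k hk ▸ mem_coker.2 hn) ▸ M.zero_mem))
  obtain rfl := D.ext_wt c1
  obtain ⟨t, ht⟩ := exists_eq_T_mul hc hc2 c4
  have : u - T t • v D.top ∈ coker ρ k := mem_coker.2 fun g => by
    rw [map_sub, map_sub, map_smul, map_smul, c5, ht, hkv, smul_eq_mul]; ring
  rw [co k hk, Submodule.mem_bot, sub_eq_zero] at this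
  exact hu (this ▸ M.smul_mem _ hv₁)

include D in
/-- Fixed-point-free modules have exponent two. -/
theorem two_smul_eq_zero [Finite E] (hρ : Fpf ρ) (v : E) : (2 : W2 F) • v = 0 := by
  induction hn : Nat.card E using Nat.strong_induction_on generalizing E with | _ n ih => ?_
  by_contra hv
  let M := LinearMap.range ((2 : W2 F) • LinearMap.id (R := W2 F) (M := E))
  have hM : Inv ρ M := by
    rintro g _ ⟨x, rfl⟩
    exact ⟨ρ g x, by simp⟩
  have hle : ∀ W, Inv ρ W → W ≠ ⊥ → M ≤ W := by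
    rintro W hW h0 _ ⟨x, rfl⟩
    have : Finite (E ⧸ W) := Finite.of_surjective _ W.mkQ_surjective
    refine (Submodule.Quotient.mk_eq_zero W).1 (ih _ ?_ (hρ.quot hW) (W.mkQ x) rfl)
    have h1 := W.toAddSubgroup.card_mul_index
    have h2 : 1 < Nat.card W.toAddSubgroup :=
      W.toAddSubgroup.one_lt_card_iff_ne_bot.2 fun e => h0 (Submodule.toAddSubgroup_injective e)
    have h3 : 0 < W.toAddSubgroup.index := Nat.card_pos (α := E ⧸ W)
    change W.toAddSubgroup.index < n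
    nlinarith
  obtain ⟨N, hN, h1, -, h2⟩ := exists_min_inv (ρ := ρ) (M₀ := M) (M₁ := ⊤) (fun _ _ _ => trivial)
    (lt_top_iff_ne_top.2 fun e => by
      obtain ⟨x, rfl⟩ : v ∈ M := e ▸ Submodule.mem_top
      exact hv (two_smul_two_smul x))
  refine D.not_uniserial (Fpf.sub hN fun a ha h1 v _ => hρ a ha h1 v) (hN.comap_subtype hM)
    (fun e => hv ?_) (fun e => h1.not_ge (Submodule.comap_subtype_eq_top.1 e)) fun W hW => ?_
  · have : (⟨_, h1.le ⟨v, rfl⟩⟩ : N) ∈ M.comap N.subtype := ⟨v, rfl⟩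
    rw [e, Submodule.mem_bot] at this
    exact congrArg Subtype.val this
  · rw [← W.comap_map_eq_of_injective N.subtype_injective]
    by_cases h0 : W.map N.subtype = ⊥
    · simp [h0]
    rcases (hle _ (Inv.map_subtype hW) h0).eq_or_lt with h | h
    · simp [h]
    · simp [h2 _ (Inv.map_subtype hW) h (N.map_subtype_le W)]

end Datum

end Cfsg.Agent.H25
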