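import Cfsg.Agent.H25.W2

/-!
Modules for the rank one groups `SL₂(2ⁿ)` and `Sz(2ⁿ)` on which the elements of odd order act
fixed-point-freely (Higman, Martineau): the abstract set-up and the simple modules.
-/

set_option autoImplicit false

namespace Cfsg.Agent.H25

open Matrix W2

variable {L : Type*} [Group L]

/-- Sums over non-trivial cyclic subgroups of odd order vanish on all translates of `φ`. -/
def FpfFun {A : Type*} [AddCommMonoid A] (φ : L → A) : Prop :=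
  ∀ a : L, Odd (orderOf a) → a ≠ 1 → ∀ x y : L,
    ∑ j ∈ Finset.range (orderOf a), φ (x * a ^ j * y) = 0

theorem FpfFun.inv {A : Type*} [AddCommMonoid A] {φ : L → A} (h : FpfFun φ) :
    FpfFun fun g => φ g⁻¹ := fun a ha h1 x y => by
  simpa [mul_assoc] using h a⁻¹ (by simpa using ha) (by simpa using h1) y⁻¹ x⁻¹

section Rep

variable {k E : Type*} [CommRing k] [AddCommGroup E] [Module k E]

/-- Elements of odd order act fixed-point-freely. -/
def Fpf (ρ : Representation k L E) : Prop :=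
  ∀ a : L, Odd (orderOf a) → a ≠ 1 → ∀ v, ∑ j ∈ Finset.range (orderOf a), ρ (a ^ j) v = 0

/-- Invariant submodules. -/
abbrev Inv (ρ : Representation k L E) (W : Submodule k E) : Prop := ∀ g, W ≤ W.comap (ρ g)

variable {ρ : Representation k L E}

theorem Fpf.fn (h : Fpf ρ) (f : E →ₗ[k] k) (v : E) : FpfFun fun g => f (ρ g v) :=
  fun a ha h1 x y => by
    simp only [map_mul, Module.End.mul_apply]
    rw [← map_sum, ← map_sum, h a ha h1, map_zero, map_zero]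

theorem dual_app (g : L) (f : Module.Dual k E) (v : E) : ρ.dual g f v = f (ρ g⁻¹ v) := rfl

theorem Fpf.dual (h : Fpf ρ) : Fpf ρ.dual := fun a ha h1 f => by
  ext v
  rw [LinearMap.sum_apply]
  simpa only [dual_app, one_mul, mul_one, LinearMap.zero_apply] using (h.fn f v).inv a ha h1 1 1

theorem Fpf.sub {W : Submodule k E} (hW : Inv ρ W) (h : ∀ a : L, Odd (orderOf a) → a ≠ 1 →
    ∀ v ∈ W, ∑ j ∈ Finset.range (orderOf a), ρ (a ^ j) v = 0) :
    Fpf (ρ.subrepresentation W hW) := fun a ha h1 v =>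
  Subtype.ext (by rw [Submodule.coe_sum]; exact h a ha h1 v v.2)

theorem Fpf.quot (h : Fpf ρ) {W : Submodule k E} (hW : Inv ρ W) : Fpf (ρ.quotient W hW) :=
  fun a ha h1 v => by
    obtain ⟨v, rfl⟩ := W.mkQ_surjective v
    have := congrArg W.mkQ (h a ha h1 v)
    rwa [map_sum, map_zero] at this

/-- The largest invariant submodule in the kernel of a functional. -/
def coker (ρ : Representation k L E) (f : E →ₗ[k] k) : Submodule k E :=
  ⨅ g, LinearMap.ker (f ∘ₗ ρ g)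

theorem mem_coker {f : E →ₗ[k] k} {v : E} : v ∈ coker ρ f ↔ ∀ g, f (ρ g v) = 0 := by
  simp [coker]

theorem inv_coker (f : E →ₗ[k] k) : Inv ρ (coker ρ f) := fun g v hv =>
  mem_coker.2 fun g' => by simpa using mem_coker.1 hv (g' * g)

theorem Inv.dualAnn {W : Submodule k E} (h : Inv ρ W) : Inv ρ.dual W.dualAnnihilator :=
  fun g _ hf => (Submodule.mem_dualAnnihilator _).2 fun _ hw =>
    (Submodule.mem_dualAnnihilator _).1 hf _ (h g⁻¹ hw)

theorem Inv.inf {W W' : Submodule k E} (h : Inv ρ W) (h' : Inv ρ W') : Inv ρ (W ⊓ W') :=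
  fun g _ hv => ⟨h g hv.1, h' g hv.2⟩

theorem Inv.map_subtype {M : Submodule k E} {hM : Inv ρ M} {W : Submodule k M}
    (h : Inv (ρ.subrepresentation M hM) W) : Inv ρ (W.map M.subtype) := by
  rintro g _ ⟨v, hv, rfl⟩
  exact ⟨_, h g hv, rfl⟩

theorem Inv.comap_subtype {M W : Submodule k E} (hM : Inv ρ M) (h : Inv ρ W) :
    Inv (ρ.subrepresentation M hM) (W.comap M.subtype) := fun g _ hv => h g hv

theorem exists_min_inv [Finite E] {M₀ M₁ : Submodule k E} (h₁ : Inv ρ M₁) (hlt : M₀ < M₁) :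
    ∃ M, Inv ρ M ∧ M₀ < M ∧ M ≤ M₁ ∧ ∀ W, Inv ρ W → M₀ < W → W ≤ M → W = M := by
  have : Finite (Submodule k E) := Finite.of_injective _ SetLike.coe_injective
  obtain ⟨M, ⟨a, b, c⟩, hmin⟩ := (inferInstance : WellFoundedLT (Submodule k E)).wf.has_min
    {M | Inv ρ M ∧ M₀ < M ∧ M ≤ M₁} ⟨M₁, h₁, hlt, le_rfl⟩
  exact ⟨M, a, b, c, fun W h1 h2 h3 => by_contra fun hne =>
    hmin W ⟨h1, h2, h3.trans c⟩ (lt_of_le_of_ne h3 hne)⟩

end Rep

variable {F : Type*} [Field F] [CharP F 2] {ι : Type*} [Fintype ι] [DecidableEq ι]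

/-- The facts about `SL₂(2ⁿ)` and `Sz(2ⁿ)` and their natural modules that are used. -/
structure Datum (L F ι : Type*) [Group L] [Field F] [CharP F 2] [Fintype ι] [DecidableEq ι] where
  π : L →* Matrix ι ι F
  U : Subgroup L
  h : Fˣ →* L
  w : L
  top : ι
  bot : ι
  rev : ι ≃ ι
  wt : Fˣ → F
  Bad : (F ≃+* F) → (L → F) → Prop
  hU : IsPGroup 2 U
  rev_top : rev top = bot
  rev_bot : rev bot = top
  ne : bot ≠ top
  π_inv : ∀ g i j, π g⁻¹ i j = π g (rev j) (rev i)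
  π_U : ∀ x ∈ U, π x *ᵥ Pi.single top 1 = Pi.single top 1
  π_h : ∀ s, π (h s) *ᵥ Pi.single top 1 = wt s • Pi.single top 1
  π_w : π w *ᵥ Pi.single top 1 = Pi.single bot 1
  conj_mem : ∀ s, ∀ x ∈ U, h s * x * (h s)⁻¹ ∈ U
  w_h : ∀ s, w * h s = (h s)⁻¹ * w
  bruhat : ∀ g, (∃ x ∈ U, ∃ s, g = x * h s) ∨ ∃ x ∈ U, ∃ y ∈ U, ∃ s, g = x * w * (y * h s)
  wt_inj : Function.Injective wt
  wt_surj : ∀ t ≠ 0, ∃ s, wt s = t
  exists_ne : ∃ s : Fˣ, s ≠ 1
  span : ∀ P : AddSubmonoid (ι → F), (∀ x ∈ U, π x *ᵥ Pi.single bot 1 ∈ P) → ∀ j, Pi.single j 1 ∈ P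
  sum1 : ∀ φ : L → W2 F, FpfFun φ → (∀ g, π g bot top ≠ 0 → φ g = 0) → φ 1 = 0
  sum2 : ∀ Φ : F → W2 F, FpfFun (fun g => Φ (π g bot top)) →
    ∀ γ, ∃ z t, Φ 1 + Φ γ + Φ (γ + 1) + z * (2 * Φ t) = 0
  sum3 : ∀ (σ : F ≃+* F) (c : W2 F), FpfFun (fun g => T (σ (π g bot top)) * c) → 2 * c = 0
  lift : ∀ (σ : F ≃+* F) (d : L → ι → F), (∀ x ∈ U, ∀ y ∈ U, d (x * y) = d x + π x *ᵥ d y) →
    (∀ s, ∀ x ∈ U, σ (wt s) • d (h s * x * (h s)⁻¹) = π (h s) *ᵥ d x) →
    ∃ e η, (∀ s, π (h s) *ᵥ e = σ (wt s) • e) ∧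
      (∀ x ∈ U, d x + e = π x *ᵥ e + η x • Pi.single top 1) ∧ ((∀ x ∈ U, η x = 0) ∨ Bad σ η)
  asym : ∀ σ σ' η η', (∀ t, σ (σ' t) = t) → Bad σ η → Bad σ' η' → False
  final : ∀ (τ σ : F ≃+* F) (η : L → F) (φ : L → W2 F) (c : W2 F), Bad σ η → c ≠ 0 → 2 * c = 0 →
    FpfFun φ → (∀ x ∈ U, ∀ g, φ (x * g) = φ g) →
    (∀ s g, φ ((h s)⁻¹ * g) = T (τ (wt s)) * φ g) →
    (∀ s g, φ (g * h s) = T (τ (σ (wt s))) * φ g) →
    (∀ x ∈ U, ∀ g, φ (g * x) = φ g + T (τ (η x * π g bot top)) * c) → ∀ x ∈ U, η x = 0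
  core : ∀ σ σ' : F ≃+* F, σ ≠ σ' → ∃ i j, (i = bot ∧ j = top ∨ i = top ∧ j = bot) ∧
    ∀ β : ι → ι → F, β top top = 0 →
      (∀ x ∈ U, ∑ k, ∑ l, σ (π x k bot) * σ' (π x l bot) * β k l = 0) → β i j = 0

namespace Datum

variable (D : Datum L F ι)

theorem entry_eq (g : L) : D.π g D.bot D.top = (D.π g *ᵥ Pi.single D.top 1) D.bot := by simp

theorem entry_inv (g : L) : D.π g⁻¹ D.bot D.top = D.π g D.bot D.top := by
  rw [D.π_inv, D.rev_top, D.rev_bot]

theorem entry_mul_U (g : L) {x : L} (hx : x ∈ D.U) :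
    D.π (g * x) D.bot D.top = D.π g D.bot D.top := by
  rw [entry_eq, map_mul, ← mulVec_mulVec, D.π_U x hx, entry_eq]

theorem entry_U_mul (g : L) {x : L} (hx : x ∈ D.U) :
    D.π (x * g) D.bot D.top = D.π g D.bot D.top := by
  rw [← entry_inv, _root_.mul_inv_rev, D.entry_mul_U _ (inv_mem hx), entry_inv]

theorem entry_mul_h (g : L) (s : Fˣ) :
    D.π (g * D.h s) D.bot D.top = D.wt s * D.π g D.bot D.top := by
  rw [entry_eq, map_mul, ← mulVec_mulVec, D.π_h, mulVec_smul, entry_eq]; rfl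

theorem entry_w : D.π D.w D.bot D.top = 1 := by rw [entry_eq, D.π_w]; simp

theorem entry_small {x : L} (hx : x ∈ D.U) (s : Fˣ) : D.π (x * D.h s) D.bot D.top = 0 := by
  rw [D.entry_U_mul _ hx, entry_eq, D.π_h]; simp [D.ne]

theorem entry_big {x y : L} (hx : x ∈ D.U) (hy : y ∈ D.U) (s : Fˣ) :
    D.π (x * D.w * (y * D.h s)) D.bot D.top = D.wt s := by
  rw [← mul_assoc, entry_mul_h, D.entry_mul_U _ hy, D.entry_U_mul _ hx, entry_w, mul_one]

theorem wt_mul (s t : Fˣ) : D.wt (s * t) = D.wt s * D.wt t := by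
  have := D.entry_mul_h (D.w * D.h t) s
  rwa [mul_assoc, ← map_mul, mul_comm t, entry_mul_h, entry_mul_h, entry_w, mul_one, mul_one] at this

theorem wt_one : D.wt 1 = 1 := by
  have := D.entry_mul_h D.w 1
  rwa [map_one, mul_one, entry_w, mul_one, eq_comm] at this

theorem wt_ne_zero (s : Fˣ) : D.wt s ≠ 0 :=
  left_ne_zero_of_mul_eq_one (by rw [← wt_mul, mul_inv_cancel, wt_one])

theorem ext_wt {σ τ : F ≃+* F} (h : ∀ s, σ (D.wt s) = τ (D.wt s)) : σ = τ := by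
  ext t
  by_cases ht : t = 0
  · simp [ht]
  · obtain ⟨s, rfl⟩ := D.wt_surj t ht
    exact h s

theorem π_h_bot (s : Fˣ) : D.π (D.h s) *ᵥ Pi.single D.bot 1 = D.wt s⁻¹ • Pi.single D.bot 1 := by
  rw [← D.π_w, mulVec_mulVec, ← map_mul, ← inv_inv (D.h s), ← map_inv, ← D.w_h, map_mul,
    ← mulVec_mulVec, D.π_h, mulVec_smul]

theorem eq_zero_of_rows {p : ι → F} (h : ∀ g, (D.π g *ᵥ p) D.bot = 0) : p = 0 := by
  ext j
  have := D.span (AddMonoidHom.mker (AddMonoidHom.mk' (fun q : ι → F => (q ∘ D.rev) ⬝ᵥ p)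
    fun _ _ => add_dotProduct _ _ _)) (fun x _ => by
      refine Eq.trans ?_ (h (x * D.w)⁻¹)
      rw [← D.π_w, mulVec_mulVec, ← map_mul]
      generalize x * D.w = g
      simp [mulVec, dotProduct, D.π_inv, D.rev_bot]) (D.rev j)
  simpa [dotProduct, Pi.single_apply] using this

variable [Finite F]

theorem odd_h (s : Fˣ) : Odd (orderOf (D.h s)) := by
  have := Fintype.ofFinite F
  refine Odd.of_dvd_nat (n := Nat.card Fˣ) ?_ ((orderOf_map_dvd _ s).trans (orderOf_dvd_natCard s))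
  rw [Nat.card_units, Nat.card_eq_fintype_card]
  exact Nat.Even.sub_odd Fintype.card_pos
    (Nat.even_iff.2 ((FiniteField.even_card_iff_char_two).1 (ringChar.eq F 2))) odd_one

omit [Finite F] in
theorem h_ne_one {s : Fˣ} (hs : s ≠ 1) : D.h s ≠ 1 := fun e => hs (D.wt_inj (by
  have := D.entry_mul_h D.w s
  rwa [e, mul_one, entry_w, mul_one, eq_comm, ← D.wt_one] at this))

/-- Bi-invariant functions. -/
theorem biInv {φ : L → W2 F} (hφ : FpfFun φ) {ψ χ : Fˣ → F}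
    (hl : ∀ x ∈ D.U, ∀ g, φ (x * g) = φ g) (hr : ∀ x ∈ D.U, ∀ g, φ (g * x) = φ g)
    (hψ : ∀ s g, φ ((D.h s)⁻¹ * g) = T (ψ s) * φ g) (hχ : ∀ s g, φ (g * D.h s) = T (χ s) * φ g)
    (hne : ∃ g, φ g ≠ 0) :
    ∃ σ : F ≃+* F, (∀ s, ψ s = σ (D.wt s)) ∧ (∀ s, χ s = σ (D.wt s)) ∧ φ D.w ≠ 0 ∧
      2 * φ D.w = 0 ∧ ∀ g, φ g = T (σ (D.π g D.bot D.top)) * φ D.w := by
  classical
  have big : ∀ x ∈ D.U, ∀ y ∈ D.U, ∀ s, φ (x * D.w * (y * D.h s)) = T (χ s) * φ D.w := by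
    intro x hx y hy s
    rw [← mul_assoc, hχ, hr y hy, hl x hx]
  have small : ∀ x ∈ D.U, ∀ s, φ (x * D.h s) = T (χ s) * φ 1 := by
    intro x hx s
    rw [hχ, ← mul_one x, hl x hx]
  have hw : φ D.w ≠ 0 := by
    intro hw
    have h1 := D.sum1 φ hφ fun g hg => by
      rcases D.bruhat g with ⟨x, hx, s, rfl⟩ | ⟨x, hx, y, hy, s, rfl⟩
      · exact absurd (D.entry_small hx s) hg
      · rw [big x hx y hy, hw, mul_zero]
    obtain ⟨g, hg⟩ := hne
    rcases D.bruhat g with ⟨x, hx, s, rfl⟩ | ⟨x, hx, y, hy, s, rfl⟩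
    · exact hg (by rw [small x hx, h1, mul_zero])
    · exact hg (by rw [big x hx y hy, hw, mul_zero])
  have hψχ : ∀ s, ψ s = χ s := fun s =>
    T_smul_inj (E := W2 F) hw (by simpa using (hψ s D.w).symm.trans (D.w_h s ▸ hχ s D.w))
  have hm : ∀ s t, χ (s * t) = χ s * χ t := fun s t => T_smul_inj (E := W2 F) hw (by
    have := hχ s (D.w * D.h t)
    rw [mul_assoc, ← map_mul, mul_comm t, hχ, hχ, ← mul_assoc, ← T_mul] at this
    exact this)
  have h1 : φ 1 = 0 := by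
    by_contra h1
    obtain ⟨s, hs⟩ := D.exists_ne
    have h2 : ∀ s, χ s = 1 := fun s => by
      have := hψ s (1 * D.h s)
      rw [hχ, one_mul, inv_mul_cancel, hψχ, ← mul_assoc, ← T_mul] at this
      have h3 : 1 = χ s * χ s := T_smul_inj (E := W2 F) h1 (by simpa using this)
      have h4 : (χ s + 1) ^ 2 = 0 := by grind
      have := pow_eq_zero_iff (two_ne_zero) |>.1 h4
      grind
    have := hφ _ (D.odd_h s) (D.h_ne_one hs) D.w 1
    simp only [← map_pow, mul_one, hχ, h2, T_one, one_mul, Finset.sum_const, Finset.card_range,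
      nsmul_eq_mul] at this
    exact hw ((isUnit_odd (D.odd_h s)).mul_right_eq_zero.1 this)
  let σ₀ : F → F := fun t => if ht : t = 0 then 0 else χ (D.wt_surj t ht).choose
  have hσ : ∀ s, σ₀ (D.wt s) = χ s := fun s => by
    simp only [σ₀, D.wt_ne_zero s, dite_false]
    rw [D.wt_inj (D.wt_surj _ (D.wt_ne_zero s)).choose_spec]
  have h0 : σ₀ 0 = 0 := by simp [σ₀]
  have hf : ∀ g, φ g = T (σ₀ (D.π g D.bot D.top)) * φ D.w := fun g => by
    rcases D.bruhat g with ⟨x, hx, s, rfl⟩ | ⟨x, hx, y, hy, s, rfl⟩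
    · rw [small x hx, D.entry_small hx, h1, h0]; simp
    · rw [big x hx y hy, D.entry_big hx hy, hσ]
  have hone : σ₀ 1 = 1 := T_smul_inj (E := W2 F) hw (by
    have := hf D.w
    rw [D.entry_w] at this
    simpa using this.symm)
  have hmul : ∀ x y, σ₀ (x * y) = σ₀ x * σ₀ y := fun x y => by
    by_cases hx : x = 0
    · simp [hx, h0]
    by_cases hy : y = 0
    · simp [hy, h0]
    obtain ⟨s, rfl⟩ := D.wt_surj x hx
    obtain ⟨t, rfl⟩ := D.wt_surj y hy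
    rw [← D.wt_mul, hσ, hσ, hσ, hm]
  have hs : ∀ γ, σ₀ (γ + 1) = σ₀ γ + 1 := fun γ => by
    obtain ⟨z, t, e⟩ := D.sum2 (fun t => T (σ₀ t) * φ D.w) (by simpa only [← hf] using hφ) γ
    have ea := congrArg W2.a e
    have eb := congrArg W2.b e
    by_cases ha : (φ D.w).a = 0
    · have hb : (φ D.w).b ≠ 0 := fun e => hw (W2.ext ha e)
      simp [ha, hone] at eb
      have h4 : (σ₀ (γ + 1) + (σ₀ γ + 1)) ^ 2 = 0 := mul_right_cancel₀ hb (by grind)
      have := pow_eq_zero_iff (two_ne_zero) |>.1 h4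
      grind
    · simp [hone] at ea
      exact mul_right_cancel₀ ha (by grind)
  let σ : F →+* F :=
    { toFun := σ₀, map_one' := hone, map_mul' := hmul, map_zero' := h0
      map_add' := fun x y => by
        by_cases hy : y = 0
        · simp [hy, h0]
        rw [show x + y = (x / y + 1) * y by field_simp, hmul, hs, add_mul, ← hmul]
        simp [hy] }
  let e := RingEquiv.ofBijective σ (Finite.injective_iff_bijective.1 σ.injective)
  exact ⟨e, fun s => (hψχ s).trans (hσ s).symm, fun s => (hσ s).symm, hw,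
    D.sum3 e _ (by simpa only [e, RingEquiv.ofBijective_apply, σ, RingHom.coe_mk, MonoidHom.coe_mk,
      OneHom.coe_mk, ← hf] using hφ), hf⟩

end Datum

end Cfsg.Agent.H25
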