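import Cfsg.Agent.H25.FpfBil

/-!
Higman's theorem: the datum of `SL₂(2ⁿ)`.
-/

set_option autoImplicit false

namespace Cfsg.Agent.H25

open Matrix W2
open scoped MatrixGroups

namespace SL2D

variable {F : Type*} [Field F]

/-- Upper unitriangular matrices. -/
def u (a : F) : SL(2, F) := ⟨!![1, a; 0, 1], by simp [det_fin_two]⟩

/-- Diagonal matrices. -/
def h : Fˣ →* SL(2, F) where
  toFun s := ⟨!![(s : F), 0; 0, (s : F)⁻¹], by simp [det_fin_two]⟩
  map_one' := by ext i j; fin_cases i <;> fin_cases j <;> simp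
  map_mul' s t := Subtype.ext (by
    change _ = !![(s : F), 0; 0, (s : F)⁻¹] * !![(t : F), 0; 0, (t : F)⁻¹]
    ext i j; fin_cases i <;> fin_cases j <;> simp [mul_apply, Fin.sum_univ_two, mul_comm])

theorem coe_u (a : F) : (u a : Matrix (Fin 2) (Fin 2) F) = !![1, a; 0, 1] := rfl

theorem coe_h (s : Fˣ) : (h s : Matrix (Fin 2) (Fin 2) F) = !![(s : F), 0; 0, (s : F)⁻¹] := rfl

theorem u_mul (a b : F) : u a * u b = u (a + b) := by
  ext i j; fin_cases i <;> fin_cases j <;> simp [coe_u, mul_apply, Fin.sum_univ_two, add_comm]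

theorem u_zero : u (0 : F) = 1 := by ext i j; fin_cases i <;> fin_cases j <;> simp [coe_u]

theorem h_conj (s : Fˣ) (a : F) : h s * u a * (h s)⁻¹ = u ((s : F) ^ 2 * a) := by
  rw [mul_inv_eq_iff_eq_mul]
  ext i j; fin_cases i <;> fin_cases j <;> simp [coe_u, coe_h, mul_apply, Fin.sum_univ_two]
  field_simp

variable [CharP F 2]

/-- The Weyl element. -/
def w : SL(2, F) := ⟨!![0, 1; 1, 0], by simp [det_fin_two, CharTwo.neg_eq]⟩

theorem coe_w : ((w : SL(2, F)) : Matrix (Fin 2) (Fin 2) F) = !![0, 1; 1, 0] := rfl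

theorem u_sq (a : F) : u a * u a = 1 := by rw [u_mul, CharTwo.add_self_eq_zero, u_zero]

/-- The upper unitriangular group. -/
def U (F : Type*) [Field F] [CharP F 2] : Subgroup SL(2, F) where
  carrier := Set.range u
  one_mem' := ⟨0, u_zero⟩
  mul_mem' := by rintro _ _ ⟨a, rfl⟩ ⟨b, rfl⟩; exact ⟨_, (u_mul a b).symm⟩
  inv_mem' := by rintro _ ⟨a, rfl⟩; exact ⟨a, (inv_eq_of_mul_eq_one_right (u_sq a)).symm⟩

theorem bruhat (g : SL(2, F)) : (∃ x ∈ U F, ∃ s, g = x * h s) ∨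
    ∃ x ∈ U F, ∃ y ∈ U F, ∃ s, g = x * w * (y * h s) := by
  have hd := g.det_coe
  rw [det_fin_two] at hd
  by_cases hg : g 1 0 = 0
  · have h0 : g 0 0 ≠ 0 := by rintro e; simp [e, hg] at hd
    refine Or.inl ⟨_, ⟨g 0 1 * g 0 0, rfl⟩, Units.mk0 _ h0, ?_⟩
    ext i j; fin_cases i <;> fin_cases j <;> simp [coe_u, coe_h, mul_apply, Fin.sum_univ_two, hg, h0]
    field_simp; grind
  · refine Or.inr ⟨_, ⟨g 0 0 / g 1 0, rfl⟩, _, ⟨g 1 1 * g 1 0, rfl⟩, Units.mk0 _ hg, ?_⟩
    ext i j; fin_cases i <;> fin_cases j <;>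
      simp [coe_u, coe_h, coe_w, mul_apply, Fin.sum_univ_two, hg]
    field_simp; grind

theorem sq_eq : (u (1 : F) * w) ^ 2 = w * u 1 := by
  ext i j; fin_cases i <;> fin_cases j <;>
    simp [pow_two, coe_u, coe_w, mul_apply, Fin.sum_univ_two, CharTwo.add_self_eq_zero]

theorem three {A : Type*} [AddCommMonoid A] {φ : SL(2, F) → A} (hφ : FpfFun φ) (x : SL(2, F)) :
    φ x + φ (x * (u 1 * w)) + φ (x * (w * u 1)) = 0 := by
  have h1 : u (1 : F) * w ≠ 1 := fun e => by simpa [coe_u, coe_w] using congrArg (· 1 1) e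
  have : orderOf (u (1 : F) * w) = 3 := by
    have := Fact.mk Nat.prime_three
    refine orderOf_eq_prime ?_ h1
    rw [pow_succ, sq_eq, mul_assoc, ← mul_assoc (u 1), u_sq, one_mul]
    ext i j; fin_cases i <;> fin_cases j <;> simp [coe_w, mul_apply, Fin.sum_univ_two]
  simpa [this, Finset.sum_range_succ, sq_eq] using hφ _ (by rw [this]; decide) h1 x 1

variable [Finite F]

theorem exists_unit_sq {t : F} (ht : t ≠ 0) : ∃ s : Fˣ, (s : F) ^ 2 = t := by
  obtain ⟨r, rfl⟩ := exists_sq t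
  exact ⟨Units.mk0 r (by simpa using ht), rfl⟩

/-- The datum of `SL₂(F)`. -/
noncomputable def datum (hF : ∃ s : Fˣ, s ≠ 1) : Datum SL(2, F) F (Fin 2) where
  π := (Units.coeHom _).comp SpecialLinearGroup.toGL
  U := U F
  h := h
  w := w
  top := 0
  bot := 1
  rev := Fin.revPerm
  wt s := s
  Bad σ η := (∀ t, σ (t ^ 2) = t) ∧ (∃ t ≠ 0, σ t * t ≠ 1) ∧ (η (u 1) = 0 → ∀ a, η (u a) = 0)
  hU := by rintro ⟨_, a, rfl⟩; exact ⟨1, Subtype.ext (by simpa [pow_two] using u_sq a)⟩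
  rev_top := rfl
  rev_bot := rfl
  ne := by decide
  π_inv g i j := by
    fin_cases i <;> fin_cases j <;> simp [SpecialLinearGroup.SL2_inv_expl, CharTwo.neg_eq] <;> rfl
  π_U := by rintro _ ⟨a, rfl⟩; ext i; fin_cases i <;> simp [coe_u]
  π_h s := by ext i; fin_cases i <;> simp [coe_h]
  π_w := by ext i; fin_cases i <;> simp [coe_w]
  conj_mem := by rintro s _ ⟨a, rfl⟩; exact ⟨_, (h_conj s a).symm⟩
  w_h s := by
    rw [← map_inv]
    ext i j; fin_cases i <;> fin_cases j <;> simp [coe_w, coe_h, mul_apply, Fin.sum_univ_two]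
  bruhat := bruhat
  wt_inj := Units.val_injective
  wt_surj t ht := ⟨Units.mk0 t ht, rfl⟩
  exists_ne := hF
  span P hP j := by
    have h0 := hP _ ⟨0, rfl⟩
    have h1 := P.add_mem h0 (hP _ ⟨1, rfl⟩)
    fin_cases j
    · convert h1; ext i; fin_cases i <;> simp [coe_u, CharTwo.add_self_eq_zero]
    · convert h0; ext i; fin_cases i <;> simp [coe_u]
  sum1 φ hφ h0 := by
    simpa [h0 (u 1 * w) (by simp [coe_u, coe_w]), h0 (w * u 1) (by simp [coe_u, coe_w])] using
      three hφ 1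
  sum2 Φ hΦ γ := ⟨0, 0, by
    have := three hΦ (w * u γ)
    simp [coe_u, coe_w, mul_apply, Fin.sum_univ_two, add_comm 1 γ] at this
    linear_combination this⟩
  sum3 σ c hc := by
    have := three hc 1
    simp [coe_u, coe_w, mul_apply, Fin.sum_univ_two] at this
    linear_combination this
  lift σ d hd hh := by
    have h1 : ∀ a, d (u a) 1 = 0 := fun a => by
      have e0 := congrFun (hd _ ⟨0, rfl⟩ _ ⟨0, rfl⟩) 1
      have e1 := congrFun (hd _ ⟨0, rfl⟩ _ ⟨0, rfl⟩) 0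
      have e2 := congrFun (hd _ ⟨a, rfl⟩ _ ⟨a, rfl⟩) 0
      rw [u_mul, add_zero] at e0 e1
      rw [u_mul, CharTwo.add_self_eq_zero] at e2
      simp [coe_u, dotProduct, Fin.sum_univ_two] at e0 e1 e2
      grind
    have h2 : ∀ a b, d (u (a + b)) 0 = d (u a) 0 + d (u b) 0 := fun a b => by
      simpa [u_mul, coe_u, mulVec, dotProduct, Fin.sum_univ_two, h1] using
        congrFun (hd _ ⟨a, rfl⟩ _ ⟨b, rfl⟩) 0
    have h3 : ∀ s ≠ 0, σ s * d (u (s ^ 2)) 0 = s * d (u 1) 0 := fun s hs => by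
      simpa [h_conj, coe_h, mulVec, dotProduct, Fin.sum_univ_two] using
        congrFun (hh (Units.mk0 s hs) _ ⟨1, rfl⟩) 0
    have h0 : d (u 0) 0 = 0 := by simpa using h2 0 0
    have h4 : d (u 1) 0 = 0 → ∀ a, d (u a) 0 = 0 := fun e a => by
      obtain ⟨s, rfl⟩ := exists_sq a
      by_cases hs : s = 0
      · simpa [hs] using h0
      · simpa [e, hs] using h3 s hs
    by_cases hc : ∀ t ≠ 0, σ t * t = 1
    · refine ⟨![0, d (u 1) 0], 0, fun s => ?_, ?_, Or.inl fun _ _ => rfl⟩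
      · ext i; fin_cases i <;> simp [coe_h, mulVec, dotProduct, Fin.sum_univ_two]
        exact Or.inl (eq_inv_of_mul_eq_one_left (hc _ s.ne_zero)).symm
      · rintro _ ⟨a, rfl⟩
        ext i; fin_cases i <;> simp [coe_u, h1]
        · obtain ⟨s, rfl⟩ := exists_sq a
          by_cases hs : s = 0
          · simpa [hs] using h0
          · have := h3 s hs
            have := hc s hs
            grind
    push Not at hc
    refine ⟨0, fun x => d x 0, by simp, ?_, ?_⟩
    · rintro _ ⟨a, rfl⟩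
      ext i; fin_cases i <;> simp [h1]
    by_cases hk : d (u 1) 0 = 0
    · exact Or.inl (by rintro _ ⟨a, rfl⟩; exact h4 hk a)
    refine Or.inr ⟨fun t => ?_, hc, h4⟩
    by_cases ht : t = 0
    · simp [ht]
    by_cases ht1 : t + 1 = 0
    · simp [show t = 1 by grind]
    have e1 := h3 t ht
    have e2 := h3 _ ht1
    rw [show (t + 1) ^ 2 = t ^ 2 + 1 by grind, h2, map_add, map_one] at e2
    rw [map_pow]
    refine mul_right_cancel₀ hk ?_
    grind
  asym := by
    rintro σ σ' η η' h1 ⟨h2, ⟨t, ht, h3⟩, -⟩ ⟨h4, -, -⟩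
    have e : ∀ t : F, (t ^ 2) ^ 2 = t := fun t => by rw [← h1 ((t ^ 2) ^ 2), h4, h2]
    refine h3 (mul_right_cancel₀ ht ?_)
    have := h2 (t ^ 2)
    rw [e] at this
    rw [this, one_mul]
    linear_combination e t
  final := by
    rintro τ σ η φ c ⟨h1, ⟨t, ht, h2⟩, h3⟩ hc - hφ hl hψ hχ hr _ ⟨a, rfl⟩
    have e1 : φ 1 = 0 := by
      by_contra hn
      have := hψ (Units.mk0 t ht) (1 * h (Units.mk0 t ht))
      rw [hχ, one_mul, inv_mul_cancel, ← mul_assoc, ← T_mul, ← map_mul] at this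
      exact h2 (τ.injective (T_smul_inj (E := W2 F) hn (by simpa [mul_comm] using this.symm)))
    have e2 : φ w = 0 := by
      by_contra hn
      obtain ⟨s, hs⟩ := hF
      have := hχ s w
      rw [show w * h s = (h s)⁻¹ * w by
        rw [← map_inv]
        ext i j; fin_cases i <;> fin_cases j <;> simp [coe_w, coe_h, mul_apply, Fin.sum_univ_two],
        hψ] at this
      have e := τ.injective (T_smul_inj (E := W2 F) hn this)
      have := h1 s
      rw [map_pow, ← e] at this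
      exact hs (Units.ext (mul_left_cancel₀ s.ne_zero (by simpa [pow_two] using this)))
    have := three hφ 1
    rw [one_mul, one_mul, hl _ ⟨1, rfl⟩, hr _ ⟨1, rfl⟩, e1, e2] at this
    exact h3 (τ.injective (T_smul_inj (E := W2 F) hc (by simpa [coe_w] using this))) a
  core σ σ' hσ := ⟨1, 0, Or.inl ⟨rfl, rfl⟩, fun β h0 hβ => by
    obtain ⟨a, ha⟩ : ∃ a, σ a ≠ σ' a := by
      by_contra hn
      push Not at hn
      exact hσ (RingEquiv.ext hn)
    have e0 := hβ _ ⟨0, rfl⟩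
    have e1 := hβ _ ⟨1, rfl⟩
    have e2 := hβ _ ⟨a, rfl⟩
    simp [coe_u, Fin.sum_univ_two, h0] at e0 e1 e2
    refine mul_left_cancel₀ (sub_ne_zero.2 ha) ?_
    grind⟩

end SL2D

/-- Higman's theorem. -/
theorem ea_of_sl2 {G F : Type*} [Group G] [Finite G] [Field F] [Finite F] [CharP F 2]
    (hF : 2 < Nat.card F) (hG : H12.IsCIT G) (N : Subgroup G) [N.Normal] (hN : IsPGroup 2 N)
    (e : G ⧸ N ≃* SL(2, F)) : H12.EA N := by
  have hk : (e.toMonoidHom.comp (QuotientGroup.mk' N)).ker = N := by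
    rw [← MonoidHom.comap_ker, MonoidHom.ker_eq_bot _ e.injective, MonoidHom.comap_bot,
      QuotientGroup.ker_mk']
  have : Nontrivial Fˣ := Finite.one_lt_card_iff_nontrivial.1 (by rw [Nat.card_units]; omega)
  exact hk ▸ (SL2D.datum (exists_ne 1)).ea_ker hG _
    (e.surjective.comp (QuotientGroup.mk'_surjective N)) (hk.symm ▸ hN)

end Cfsg.Agent.H25
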