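import Cfsg.Agent.H25.FpfBil
import Cfsg.Agent.H13.SzGroup
import Cfsg.Agent.H13.SzInst

/-!
Martineau's theorem: the datum of the Suzuki groups.
-/

set_option autoImplicit false

namespace Cfsg.Agent.H25

open Matrix W2 H13

namespace SzD

section Field

variable {F : Type*} [Field F]

theorem pair {α β γ δ : F → F} (hα : ∀ x y, α (x + y) = α x + α y)
    (hβ : ∀ x y, β (x + y) = β x + β y) (hγ : ∀ x y, γ (x + y) = γ x + γ y)
    (hδ : ∀ x y, δ (x + y) = δ x + δ y) (h1 : α 1 = 1) (h2 : β 1 = 1) (h3 : γ 1 = 1)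
    (h4 : δ 1 = 1) (h : ∀ x, α x * β x = γ x * δ x) :
    (∀ x, α x = γ x ∧ β x = δ x) ∨ ∀ x, α x = δ x ∧ β x = γ x := by
  have e : ∀ x, α x + β x = γ x + δ x := fun x => by
    have := h (x + 1)
    rw [hα, hβ, hγ, hδ, h1, h2, h3, h4] at this
    linear_combination this - h x
  have e' : ∀ x, α x = γ x ∨ α x = δ x := fun x => by
    rw [← sub_eq_zero, ← sub_eq_zero (a := α x), ← mul_eq_zero]
    linear_combination α x * e x - h x
  by_cases hc : ∀ x, α x = γ x
  · exact Or.inl fun x => ⟨hc x, by linear_combination e x - hc x⟩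
  push Not at hc
  obtain ⟨x, hx⟩ := hc
  have key : ∀ y, α y = δ y := fun y => by
    have hx' := (e' x).resolve_left hx
    rcases e' y with a | a
    · rcases e' (x + y) with b | b
      · rw [hα, hγ] at b
        exact absurd (by linear_combination b - a) hx
      · rw [hα, hδ] at b
        linear_combination b - hx'
    · exact a
  exact Or.inr fun y => ⟨key y, by linear_combination e y - key y⟩

theorem dedekind {χ : F →* F} {c : F} {g : F → F}
    (hg : g ∈ Submodule.span F ((fun f : F →* F => (f : F → F)) '' (Set.univ \ {χ})))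
    (h : ∀ x, c * χ x + g x = 0) : c = 0 := by
  by_contra hc
  refine linearIndependent_iff_notMem_span.1 (linearIndependent_monoidHom F F) χ ?_
  have : (χ : F → F) = (-c⁻¹) • g := by
    ext x
    have := h x
    simp only [Pi.smul_apply, smul_eq_mul]
    field_simp
    linear_combination this
  exact this ▸ Submodule.smul_mem _ _ hg

variable [Tits F]

theorem cube_ne (t : F) : t ^ 2 + t + 1 ≠ 0 := fun h => by
  have h1 := congrArg θ h
  simp only [map_add, map_pow, map_one, map_zero] at h1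
  have h2 : (θ t + t) * (θ t + t + 1) = 0 := by grind
  rcases mul_eq_zero.1 h2 with e | e
  · rcases θ_eq_self (show θ t = t by grind) with rfl | rfl <;> grind
  · have h3 := congrArg θ e
    simp only [map_add, θθ, map_one, map_zero] at h3
    grind

variable (hy : ∃ y : F, y ^ 2 ≠ y)
include hy

theorem not_inv (σ : F ≃+* F) : ∃ t ≠ 0, σ t * t ≠ 1 := by
  by_contra hn
  push Not at hn
  obtain ⟨y, hy⟩ := hy
  have h1 := hn y (by rintro rfl; simp at hy)
  have h2 := hn (y + 1) (fun e => hy (by rw [show y = 1 by grind]; simp))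
  rw [map_add, map_one] at h2
  exact cube_ne y (by grind)

theorem exists_θ_ne : ∃ y : F, θ y ≠ y ∧ θ y ≠ y ^ 2 := by
  obtain ⟨y, hy⟩ := hy
  have h1 : θ y ≠ y := fun e => by rcases θ_eq_self e with rfl | rfl <;> simp at hy
  exact ⟨y, h1, fun e => h1 (θ_inj (by rw [θθ, e]))⟩

theorem triple {σ : F ≃+* F} {ρ : F → F} (ha : ∀ x y, ρ (x + y) = ρ x + ρ y) (h1 : ρ 1 = 1)
    (h2 : ∀ x, ρ (x ^ 2) = ρ x ^ 2) (h : ∀ s, σ s * σ (θ s) * ρ s = s * θ s) :
    (∀ s, ρ s = σ s) ∨ ∀ s, ρ s = σ (θ s) := by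
  obtain ⟨y, hy, -⟩ := exists_θ_ne hy
  have hy' : σ y + σ (θ y) ≠ 0 := fun e => hy (σ.injective (by grind))
  have e1 : ∀ s, σ s * σ (θ s) + σ s * ρ s + σ (θ s) * ρ s + σ s + σ (θ s) + ρ s = s + θ s := by
    intro s
    have := h (s + 1)
    simp only [map_add, map_one, ha, h1] at this
    linear_combination this - h s
  have e2 : ∀ x, ρ x * (σ y + σ (θ y)) =
      σ x * (σ (θ y) + ρ y) + σ (θ x) * (σ y + ρ y) := fun x => by
    have := e1 (x + y)
    have a := e1 x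
    have b := e1 y
    simp only [map_add, ha] at this
    grind
  have e3 := e2 (y ^ 2)
  simp only [h2, map_pow] at e3
  have e4 : (σ (θ y) + ρ y) * (σ y + ρ y) = 0 := mul_left_cancel₀ hy' (by grind)
  rcases mul_eq_zero.1 e4 with e | e
  · exact Or.inr fun s => mul_right_cancel₀ hy' (by have := e2 s; grind)
  · exact Or.inl fun s => mul_right_cancel₀ hy' (by have := e2 s; grind)

theorem lift_top {σ : F ≃+* F} {ν : F → F} (ha : ∀ x y, ν (x + y) = ν x + ν y)
    (hs : Function.Surjective (θ : F → F)) (hs' : ∀ t, ∃ s : F, s * θ s = t)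
    (h : ∀ s ≠ 0, ∀ a, σ (s * θ s) * ν (θ s * a) = s * θ s * ν a) :
    (∀ a, ν a = 0) ∨ ((∀ t, σ (θ t) = t) ∧ ∀ a, ν a ^ 2 = ν 1 ^ 2 * a) := by
  have h0 : ν 0 = 0 := by simpa using ha 0 0
  have h1 : ∀ s, σ s * σ (θ s) * ν (θ s) = s * θ s * ν 1 := fun s => by
    by_cases hs : s = 0
    · simp [hs]
    · simpa using h s hs 1
  have hσ : ∀ s ≠ 0, σ s * σ (θ s) ≠ 0 := fun s hs => by simp [hs]
  by_cases hk : ν 1 = 0
  · refine Or.inl fun a => ?_
    obtain ⟨s, rfl⟩ := hs a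
    by_cases hs : s = 0
    · simp [hs, h0]
    · exact mul_left_cancel₀ (hσ s hs) (by rw [h1, hk]; simp)
  rcases triple hy (σ := σ) (ρ := fun s => ν (θ s) / ν 1) (fun x y => by simp [ha, add_div])
    (by simp [hk]) (fun x => by
      by_cases hx : x = 0
      · simp [hx, h0]
      have a := h x hx (θ x)
      have b := h1 x
      rw [map_mul] at a
      field_simp
      refine mul_left_cancel₀ (hσ x hx) ?_
      rw [map_pow, pow_two (θ x)]
      linear_combination ν 1 * a - ν (θ x) * b)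
    (fun s => by field_simp; linear_combination h1 s) with e | e
  · have e1 : ∀ t, σ (θ t) = t := fun t => by
      obtain ⟨s, rfl⟩ := hs' t
      have := h1 s
      have e' := e s
      rw [div_eq_iff hk] at e'
      rw [map_mul, θθ, map_mul, map_pow]
      exact mul_right_cancel₀ hk (by grind)
    refine Or.inr ⟨e1, fun a => ?_⟩
    obtain ⟨s, rfl⟩ := hs a
    have e' := e s
    rw [div_eq_iff hk] at e'
    rw [e', mul_pow, ← map_pow, ← θθ, e1, mul_comm]
  exfalso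
  obtain ⟨y, hy⟩ := hy
  rcases pair (α := id) (β := θ) (γ := σ) (δ := fun s => σ (θ s) ^ 2) (fun _ _ => rfl) (map_add _)
    (map_add _) (fun x y => by simp only [map_add]; grind) rfl (map_one _) (map_one _) (by simp)
    (fun s => by
      have := h1 s
      have e' := e s
      rw [div_eq_iff hk] at e'
      exact mul_right_cancel₀ hk (by grind)) with a | a
  · have := (a y).2
    rw [← (a (θ y)).1] at this
    exact hy (θ_inj (by simpa using this.symm))
  · have := (a y).1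
    rw [← (a (θ y)).2, θθ] at this
    have h2 : y * (y + 1) * (y ^ 2 + y + 1) = 0 := by grind
    exact hy (by grind [cube_ne y])

end Field

variable {G F : Type*} [Group G] [Field F] [Tits F] (M : Model G F)

/-- An element of order five. -/
noncomputable def a5 : G := M.u 0 1 * M.w

theorem ρ_a1 : M.ρ (a5 M) = !![1, 1, 0, 1; 1, 0, 1, 0; 0, 1, 0, 0; 1, 0, 0, 0] := by
  ext i j; fin_cases i <;> fin_cases j <;> simp [a5, uM, JM, fo, mul_apply, Fin.sum_univ_four]

theorem ρ_a2 : M.ρ (a5 M ^ 2) = !![1, 1, 1, 1; 1, 0, 0, 1; 1, 0, 1, 0; 1, 1, 0, 1] := by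
  rw [pow_two, map_mul, ρ_a1]
  ext i j; fin_cases i <;> fin_cases j <;> simp [mul_apply, Fin.sum_univ_four] <;> grind

theorem ρ_a3 : M.ρ (a5 M ^ 3) = !![1, 0, 1, 1; 0, 1, 0, 1; 1, 0, 0, 1; 1, 1, 1, 1] := by
  rw [pow_succ, map_mul, ρ_a1, ρ_a2]
  ext i j; fin_cases i <;> fin_cases j <;> simp [mul_apply, Fin.sum_univ_four] <;> grind

theorem ρ_a4 : M.ρ (a5 M ^ 4) = !![0, 0, 0, 1; 0, 0, 1, 0; 0, 1, 0, 1; 1, 0, 1, 1] := by
  rw [pow_succ, map_mul, ρ_a1, ρ_a3]
  ext i j; fin_cases i <;> fin_cases j <;> simp [mul_apply, Fin.sum_univ_four] <;> grind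

theorem five {A : Type*} [AddCommMonoid A] {φ : G → A} (hφ : FpfFun φ) (x y : G) :
    φ (x * y) + φ (x * a5 M * y) + φ (x * a5 M ^ 2 * y) + φ (x * a5 M ^ 3 * y) +
      φ (x * a5 M ^ 4 * y) = 0 := by
  have h1 : a5 M ≠ 1 := fun e => by simpa [e] using congrFun (congrFun (ρ_a1 M) 3) 3
  have : orderOf (a5 M) = 5 := by
    have := Fact.mk Nat.prime_five
    refine orderOf_eq_prime (M.inj ?_) h1
    rw [pow_succ, map_mul, ρ_a1, ρ_a4, map_one]
    ext i j; fin_cases i <;> fin_cases j <;> simp [mul_apply, Fin.sum_univ_four] <;> grind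
  simpa [this, Finset.sum_range_succ] using hφ _ (by rw [this]; decide) h1 x y

theorem five_row {A : Type*} [AddCommMonoid A] {Ψ : (Fin 4 → F) → A}
    (h : FpfFun fun g => Ψ (M.ρ g 3)) (b : F) (y : G) :
    Ψ (![1, 0, b, θ b] ᵥ* M.ρ y) + Ψ (![1 + θ b, 1 + b, 0, 1] ᵥ* M.ρ y) +
      Ψ (![1 + b + θ b, 1 + θ b, 1 + b, 1 + θ b] ᵥ* M.ρ y) +
      Ψ (![1 + b + θ b, θ b, 1 + θ b, 1 + b + θ b] ᵥ* M.ρ y) +
      Ψ (![θ b, b, θ b, 1 + b + θ b] ᵥ* M.ρ y) = 0 := by
  have hx : M.ρ (M.w * M.u 0 b) 3 = ![1, 0, b, θ b] := by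
    ext j; fin_cases j <;> simp [uM, JM, fo, mul_apply, Fin.sum_univ_four]
  have := five M h (M.w * M.u 0 b) y
  simp only [map_mul M.ρ _ y, map_mul M.ρ (M.w * M.u 0 b), mul_apply_eq_vecMul, hx, ρ_a1, ρ_a2, ρ_a3,
    ρ_a4] at this
  rw [← this]
  congr 4
  · congr 2
    ext j; fin_cases j <;> simp [vecMul, dotProduct, Fin.sum_univ_four]
  all_goals ext j; fin_cases j <;> simp [vecMul, dotProduct, Fin.sum_univ_four]

variable [Finite F] (hy : ∃ y : F, y ^ 2 ≠ y)

omit M in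
theorem θ_surj : Function.Surjective (θ : F → F) := Finite.injective_iff_surjective.1 θ_inj

omit M in
theorem mul_θ_surj (t : F) : ∃ s : F, s * θ s = t :=
  Finite.injective_iff_surjective.1 (fun _ _ => mul_θ_inj) t

omit M in
theorem sq_mul_θ_surj (t : F) : ∃ s : F, s ^ 2 * θ s = t :=
  Finite.injective_iff_surjective.1 (fun _ _ => sq_mul_θ_inj) t

include hy in
theorem lift (σ : F ≃+* F) (d : G → Fin 4 → F)
    (hd : ∀ x ∈ M.U, ∀ y ∈ M.U, d (x * y) = d x + M.ρ x *ᵥ d y)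
    (hh : ∀ s : Fˣ, ∀ x ∈ M.U, σ (s * θ (s : F)) • d (M.h s * x * (M.h s)⁻¹) = M.ρ (M.h s) *ᵥ d x) :
    ∃ (e : Fin 4 → F) (η : G → F), (∀ s : Fˣ, M.ρ (M.h s) *ᵥ e = σ (s * θ (s : F)) • e) ∧
      (∀ x ∈ M.U, d x + e = M.ρ x *ᵥ e + η x • Pi.single 0 1) ∧ ((∀ x ∈ M.U, η x = 0) ∨
        ((∀ t, σ (θ t) = t) ∧ ∃ κ, ∀ a b, η (M.u a b) ^ 2 = κ * a)) := by
  have c : ∀ a b a' b' i, d (M.u (a + a') (b + b' + θ a * a')) i =
      d (M.u a b) i + (uM a b *ᵥ d (M.u a' b')) i := fun a b a' b' i => by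
    rw [← M.u_mul_u, hd _ (M.u_mem_U _ _) _ (M.u_mem_U _ _), M.ρ_u]; rfl
  have g : ∀ s ≠ 0, ∀ a b i, σ (s * θ s) * d (M.u (θ s * a) (s ^ 2 * θ s * b)) i =
      (hM s *ᵥ d (M.u a b)) i := fun s hs a b i => by
    have := congrFun (hh (Units.mk0 s hs) _ (M.u_mem_U a b)) i
    rwa [M.h_u_conj, M.ρ_h] at this
  generalize hD : (fun a b => d (M.u a b)) = D
  have hD' : ∀ a b, d (M.u a b) = D a b := fun a b => by rw [← hD]
  simp only [hD'] at c g
  have c0 := fun a b a' b' => c a b a' b' 0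
  have c1 := fun a b a' b' => c a b a' b' 1
  have g0 := fun s hs a b => g s hs a b 0
  have g1 := fun s hs a b => g s hs a b 1
  simp only [uM, hM, mulVec, dotProduct, Fin.sum_univ_four, of_apply, cons_val, one_mul, zero_mul,
    zero_add, add_zero, cons_val_zero, cons_val_one] at c0 c1 g0 g1
  have z : ∀ i, D 0 0 i = 0 := fun i => by
    have := c 0 0 0 0 i
    simpa [uM_zero] using this
  have z3 : ∀ a b, D a b 3 = 0 := fun a b => by
    have e1 := c1 0 1 a b
    have e2 := c1 a b 0 1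
    have e3 := c1 0 1 0 1
    have e4 := c0 0 1 0 1
    simp [fo, z, CharTwo.add_self_eq_zero, add_comm b] at e1 e2 e3 e4
    grind
  have z2 : ∀ b, D 0 b 2 = 0 := fun b => by
    have e := c0 0 b 0 b
    by_cases hb : b = 0
    · simp [hb, z]
    simp [z, z3, CharTwo.add_self_eq_zero] at e
    exact mul_left_cancel₀ hb (by grind)
  have k1 : ∀ a b' b, b * D a b' 2 = a * D 0 b 1 := fun a b' b => by
    have e1 := c0 0 b a b'
    have e2 := c0 a b' 0 b
    simp [z3, z2, add_comm b'] at e1 e2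
    grind
  have k2 : D 0 1 1 = 0 := by
    by_contra hk
    obtain ⟨t, ht, h⟩ := not_inv hy σ
    obtain ⟨s, rfl⟩ := mul_θ_surj t
    have hs : s ≠ 0 := left_ne_zero_of_mul ht
    have e1 := g1 s hs 0 1
    have e2 := k1 1 0 (s ^ 2 * θ s)
    have e3 := k1 1 0 1
    simp only [mul_zero, mul_one, one_mul] at e1 e2 e3
    exact h (mul_left_cancel₀ (mul_ne_zero hs hk) (by grind))
  have k3 : ∀ a b, D a b 2 = 0 := fun a b => by simpa [k2] using k1 a b 1
  have k4 : ∀ b, D 0 b 1 = 0 := fun b => by simpa [k3] using (k1 1 0 b).symm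
  simp only [k3, z3, mul_zero, add_zero] at c0 c1
  have k5 : ∀ a b, D a b 1 = D a 0 1 := fun a b => by simpa [k4] using c1 a 0 0 b
  have δa : ∀ a a', D (a + a') 0 1 = D a 0 1 + D a' 0 1 := fun a a' => by
    rw [← c1, k5 (a + a') (_ + _)]
  have δh : ∀ s ≠ 0, σ (s * θ s) * D (θ s) 0 1 = s * D 1 0 1 := fun s hs => by
    simpa using g1 s hs 1 0
  have μa : ∀ b b', D 0 (b + b') 0 = D 0 b 0 + D 0 b' 0 := fun b b' => by simpa using c0 0 b 0 b'
  have μs : ∀ a, D 0 (θ a * a) 0 = a * D a 0 1 := fun a => by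
    have := c0 a 0 a 0
    simp only [CharTwo.add_self_eq_zero, zero_add] at this
    grind
  have hσ : ∀ s ≠ 0, σ (s * θ s) ≠ 0 := fun s hs => by simp [hs]
  obtain ⟨κ, h1, h2⟩ : ∃ κ, (∀ a, D a 0 1 = κ * θ a) ∧ ∀ s ≠ 0, σ (s * θ s) * κ = s⁻¹ * κ := by
    by_cases hk : D 1 0 1 = 0
    · refine ⟨0, fun a => ?_, by simp⟩
      obtain ⟨s, rfl⟩ := θ_surj a
      by_cases hs : s = 0
      · simp [hs, z]
      · exact mul_left_cancel₀ (hσ s hs) (by rw [δh s hs, hk]; simp)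
    have m1 : D 0 1 0 = D 1 0 1 := by simpa using μs 1
    have mm : ∀ b b', D 0 (b * b') 0 * D 1 0 1 = D 0 b 0 * D 0 b' 0 := fun b b' => by
      obtain ⟨s, rfl⟩ := sq_mul_θ_surj b
      by_cases hs : s = 0
      · simp [hs, z]
      have e1 := g0 s hs 0 b'
      have e2 := g0 s hs 0 1
      simp only [mul_zero, mul_one, m1] at e1 e2
      refine mul_left_cancel₀ (hσ s hs) ?_
      linear_combination D 1 0 1 * e1 - D 0 b' 0 * e2
    rcases pair (α := id) (β := fun a => D a 0 1 / D 1 0 1) (γ := fun a => D 0 a 0 / D 1 0 1)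
      (δ := fun a => D 0 (θ a) 0 / D 1 0 1) (fun _ _ => rfl) (fun x y => by simp [δa, add_div])
      (fun x y => by simp [μa, add_div]) (fun x y => by simp [μa, add_div]) rfl (by simp [hk])
      (by simp [hk, m1]) (by simp [hk, m1]) (fun a => by
        have := mm (θ a) a
        rw [μs] at this
        field_simp
        simp only [id]
        linear_combination this) with e | e
    · have e1 : ∀ a, D a 0 1 = D 1 0 1 * θ a := fun a => by
        have e1 := (e a).2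
        rw [← (e (θ a)).1, div_eq_iff hk] at e1
        rw [e1, mul_comm]; rfl
      refine ⟨_, e1, fun s hs => ?_⟩
      have := δh s hs
      rw [e1, θθ] at this
      field_simp
      exact mul_left_cancel₀ (mul_ne_zero hs hk) (by linear_combination this)
    · exfalso
      obtain ⟨y, hy⟩ := hy
      obtain ⟨s, rfl⟩ := mul_θ_surj y
      have hs : s ≠ 0 := by rintro rfl; simp at hy
      have e1 := (e (θ s)).2
      have e2 := (e s).1
      rw [← e1, eq_div_iff hk] at e2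
      have := δh s hs
      rw [← e2] at this
      have h3 : σ (s * θ s) = σ 1 :=
        mul_right_cancel₀ (mul_ne_zero hs hk) (by simpa using this)
      exact hy (by rw [σ.injective h3]; simp)
  have ηa : ∀ a b a' b', D (a + a') (b + b' + θ a * a') 0 +
      κ * (b + b' + θ a * a' + (a + a') * θ (a + a')) =
      D a b 0 + κ * (b + a * θ a) + (D a' b' 0 + κ * (b' + a' * θ a')) := fun a b a' b' => by
    rw [c0, k5, h1, map_add]; grind
  have η0 : ∀ b, D 0 b 0 + κ * b = 0 := fun b => by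
    obtain ⟨a, rfl⟩ := mul_θ_surj b
    rw [mul_comm a, μs, h1]; grind
  have η1 : ∀ a b, D a b 0 + κ * (b + a * θ a) = D a 0 0 + κ * (a * θ a) := fun a b => by
    simpa [η0] using ηa a 0 0 b
  refine ⟨![0, 0, κ, 0], fun x => d x 0 + κ * M.ρ x 0 2, fun s => ?_, ?_, ?_⟩
  · ext i; fin_cases i <;> simp [hM, mulVec, dotProduct, Fin.sum_univ_four]
    simpa using (h2 s s.ne_zero).symm
  · rintro _ ⟨a, b, rfl⟩
    ext i; fin_cases i <;> simp [uM, hD', z3, k3]
    · grind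
    · rw [k5, h1, mul_comm]
  rcases lift_top hy (σ := σ) (ν := fun a => D a 0 0 + κ * (a * θ a))
    (fun a a' => by rw [← η1 _ (0 + 0 + θ a * a'), ηa]; simp) θ_surj mul_θ_surj
    (fun s hs a => by
      have e1 := g0 s hs a 0
      have e2 := h2 s hs
      rw [mul_zero] at e1
      rw [map_mul θ, θθ]
      field_simp at e2
      linear_combination e1 + s * θ s * a * θ a * e2) with e | ⟨e, e'⟩
  · refine Or.inl ?_
    rintro _ ⟨a, b, rfl⟩
    simpa [hD', uM, η1] using e a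
  · exact Or.inr ⟨e, _, fun a b => by simpa [hD', uM, η1] using e' a⟩

include hy in
theorem final (τ σ : F ≃+* F) (η : G → F) (φ : G → W2 F) (c : W2 F) (h1 : ∀ t, σ (θ t) = t) {κ : F}
    (h2 : ∀ a b, η (M.u a b) ^ 2 = κ * a) (hc : c ≠ 0) (hc2 : 2 * c = 0) (hφ : FpfFun φ)
    (hl : ∀ x ∈ M.U, ∀ g, φ (x * g) = φ g)
    (hψ : ∀ (s : Fˣ) g, φ ((M.h s)⁻¹ * g) = T (τ (s * θ (s : F))) * φ g)
    (hχ : ∀ (s : Fˣ) g, φ (g * M.h s) = T (τ (σ (s * θ (s : F)))) * φ g)
    (hr : ∀ x ∈ M.U, ∀ g, φ (g * x) = φ g + T (τ (η x * M.ρ g 3 0)) * c) : κ = 0 := by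
  have e1 : φ 1 = 0 := by
    by_contra hn
    obtain ⟨t, ht, h⟩ := not_inv hy σ
    obtain ⟨s, rfl⟩ := mul_θ_surj t
    have := hψ (Units.mk0 s (left_ne_zero_of_mul ht)) (1 * M.h (Units.mk0 s (left_ne_zero_of_mul ht)))
    rw [hχ, one_mul, inv_mul_cancel, ← mul_assoc, ← T_mul, ← map_mul] at this
    exact h (τ.injective (T_smul_inj (E := W2 F) hn (by
      rw [map_one, T_one, one_smul, mul_comm]; exact this.symm)))
  obtain ⟨y, hy1, hy2⟩ := exists_θ_ne hy
  have e2 : φ M.w = 0 := by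
    by_contra hn
    obtain ⟨s, hs⟩ := mul_θ_surj (θ y)
    have hs0 : s ≠ 0 := by
      rintro rfl
      exact hy1 (by rw [θ_eq_zero.1 (by simpa using hs.symm : θ y = 0), map_zero])
    have := hχ (Units.mk0 s hs0) M.w
    rw [M.w_mul_h, M.h_inv, hψ] at this
    have e := τ.injective (T_smul_inj (E := W2 F) hn this)
    rw [Units.val_mk0, hs, h1] at e
    exact hy1 e
  choose r hr2 using exists_sq (F := F)
  have hΨ : ∀ g, φ g = T (τ (r (κ * M.ρ g 3 0 * M.ρ g 3 1))) * c := fun g => by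
    rcases M.bruhat g with ⟨a, b, s, rfl⟩ | ⟨x, y, a, b, s, rfl⟩
    · rw [hχ, ← mul_one (M.u a b), hl _ (M.u_mem_U _ _), e1,
        sq_inj_char2 (s := r _) (t := 0) (by rw [hr2]; simp [uM, hM, mul_apply, Fin.sum_univ_four])]
      simp
    · rw [← mul_assoc, hχ, hr _ (M.u_mem_U _ _), hl _ (M.u_mem_U _ _), e2, zero_add, ← mul_assoc,
        ← T_mul, ← map_mul]
      congr 3
      refine sq_inj_char2 ?_
      have a1 := h1 (θ (s : F))
      have a2 := h1 (s : F)
      have a3 := h2 a b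
      rw [θθ, map_pow] at a1
      rw [hr2]
      simp [uM, hM, JM, mul_apply, Fin.sum_univ_four, a2]
      linear_combination (s : F) ^ 2 * η (M.u a b) ^ 2 * a1 + (s : F) ^ 2 * θ (s : F) * a3
  have := five_row M (Ψ := fun v => T (τ (r (κ * v 0 * v 1))) * c) (by simpa only [← hΨ] using hφ)
    y (M.u 0 y * M.w)
  simp only [← T_add_mul hc2, ← map_add] at this
  have h3 := congrArg (· ^ 2) (τ.injective (T_smul_inj (E := W2 F) hc
    (this.trans (by rw [map_zero, T_zero, zero_smul]))))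
  simp only [CharTwo.add_sq, hr2] at h3
  simp [uM, JM, fo, vecMul, dotProduct, mul_apply, Fin.sum_univ_four] at h3
  have h4 : κ * ((θ y + y) * (θ y + y ^ 2)) = 0 := by grind
  exact (mul_eq_zero.1 h4).resolve_right (mul_ne_zero (by grind) (by grind))

include hy in
theorem core {σ σ' : F ≃+* F} (h1 : σ ≠ σ') (h2 : ∃ t, σ t ≠ σ' (θ t)) (β : Fin 4 → Fin 4 → F)
    (h0 : β 0 0 = 0) (hβ : ∀ x ∈ M.U, ∑ k, ∑ l, σ (M.ρ x k 3) * σ' (M.ρ x l 3) * β k l = 0) :
    β 3 0 = 0 := by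
  obtain ⟨y, hy1, hy2⟩ := exists_θ_ne hy
  let a : F →* F := σ
  let a' : F →* F := σ'
  let b : F →* F := a.comp (θ : F →+* F)
  let b' : F →* F := a'.comp (θ : F →+* F)
  have mem : ∀ f : F →* F, f ≠ b' → ∀ c : F, c • (f : F → F) ∈
      Submodule.span F ((fun f : F →* F => (f : F → F)) '' (Set.univ \ {b'})) := fun f hf c =>
    Submodule.smul_mem _ _ (Submodule.subset_span ⟨f, ⟨trivial, hf⟩, rfl⟩)
  have prod : ∀ f g : F →+* F, (f : F →* F) * g = b' → ∀ t, f t = g t := fun f g e t => by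
    have e1 : f t * g t = σ' (θ t) := DFunLike.congr_fun e t
    have e2 : f (t + 1) * g (t + 1) = σ' (θ (t + 1)) := DFunLike.congr_fun e (t + 1)
    simp only [map_add, map_one] at e2
    grind
  refine dedekind (χ := b') (g := β 0 1 • ⇑(b * a') + β 0 3 • ⇑b + β 1 0 • ⇑(a * b') +
    β 1 1 • ⇑(a * a') + β 1 3 • ⇑a + β 3 1 • ⇑a' + β 3 3 • ⇑(1 : F →* F))
    (add_mem (add_mem (add_mem (add_mem (add_mem (add_mem (mem _ (fun e => ?_) _)
      (mem _ (fun e => ?_) _)) (mem _ (fun e => ?_) _)) (mem _ (fun e => ?_) _))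
      (mem _ (fun e => ?_) _)) (mem _ (fun e => ?_) _)) (mem _ (fun e => ?_) _)) fun x => ?_
  · have e1 : σ (θ y) = σ' y := prod ((σ : F →+* F).comp θ) σ' e y
    have e2 : σ (θ y) * σ' y = σ' (θ y) := DFunLike.congr_fun e y
    exact hy2 (σ'.injective (by rw [← e2, e1, map_pow, pow_two]))
  · refine h1 (RingEquiv.ext fun t => ?_)
    obtain ⟨s, rfl⟩ := θ_surj t
    exact DFunLike.congr_fun e s
  · obtain ⟨t, ht⟩ := h2
    exact ht (prod σ ((σ' : F →+* F).comp θ) e t)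
  · exact h1 (RingEquiv.ext (prod σ σ' e))
  · obtain ⟨t, ht⟩ := h2
    exact ht (DFunLike.congr_fun e t)
  · exact hy1 (σ'.injective (DFunLike.congr_fun e y)).symm
  · simpa [b', a'] using DFunLike.congr_fun e 0
  · have := hβ _ (M.u_mem_U 0 x)
    simp [uM, fo, Fin.sum_univ_four, h0] at this
    simp [a, a', b, b']
    linear_combination this

/-- The datum of a Suzuki group. -/
noncomputable def datum : Datum G F (Fin 4) where
  π := M.ρ
  U := M.U
  h := M.hHom
  w := M.w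
  top := 0
  bot := 3
  rev := Fin.revPerm
  wt s := s * θ (s : F)
  Bad σ η := (∀ t, σ (θ t) = t) ∧ ∃ κ, ∀ a b, η (M.u a b) ^ 2 = κ * a
  hU := M.isPGroup_U
  rev_top := rfl
  rev_bot := rfl
  ne := by decide
  π_inv g i j := by
    rw [M.ρ_inv]
    fin_cases i <;> fin_cases j <;> simp [JM, mul_apply, vecMul, dotProduct, Fin.sum_univ_four]
  π_U := by rintro _ ⟨a, b, rfl⟩; ext i; fin_cases i <;> simp [uM]
  π_h s := by ext i; fin_cases i <;> simp [hM]
  π_w := by ext i; fin_cases i <;> simp [JM]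
  conj_mem := by rintro s _ ⟨a, b, rfl⟩; exact ⟨_, _, M.h_u_conj s a b⟩
  w_h s := by rw [M.hHom_apply, M.w_mul_h, M.h_inv]
  bruhat g := by
    rcases M.bruhat g with ⟨a, b, s, rfl⟩ | ⟨x, y, a, b, s, rfl⟩
    · exact Or.inl ⟨_, M.u_mem_U _ _, s, rfl⟩
    · exact Or.inr ⟨_, M.u_mem_U _ _, _, M.u_mem_U _ _, s, rfl⟩
  wt_inj _ _ h := Units.ext (mul_θ_inj h)
  wt_surj t ht := by
    obtain ⟨s, rfl⟩ := mul_θ_surj t
    exact ⟨Units.mk0 s (left_ne_zero_of_mul ht), rfl⟩
  exists_ne := exists_unit_ne_one hy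
  span P hP j := by
    have h0 := hP _ (M.u_mem_U 0 0)
    have h1 := hP _ (M.u_mem_U 0 1)
    have h2 := hP _ (M.u_mem_U 1 0)
    have h3 := hP _ (M.u_mem_U 1 1)
    fin_cases j
    · convert P.add_mem (P.add_mem h0 h1) (P.add_mem h2 h3)
      ext i; fin_cases i <;> simp [uM, fo] <;> grind
    · convert P.add_mem h2 h3
      ext i; fin_cases i <;> simp [uM, fo] <;> grind
    · convert P.add_mem h1 h3
      ext i; fin_cases i <;> simp [uM, fo] <;> grind
    · convert h0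
      ext i; fin_cases i <;> simp
  sum1 φ hφ h0 := by
    simpa [h0 _ (show M.ρ (a5 M) 3 0 ≠ 0 by simp [ρ_a1]),
      h0 _ (show M.ρ (a5 M ^ 2) 3 0 ≠ 0 by rw [ρ_a2]; simp),
      h0 _ (show M.ρ (a5 M ^ 3) 3 0 ≠ 0 by rw [ρ_a3]; simp),
      h0 _ (show M.ρ (a5 M ^ 4) 3 0 ≠ 0 by rw [ρ_a4]; simp)] using five M hφ 1 1
  sum2 Φ hΦ γ := by
    obtain ⟨b, rfl⟩ := θ_surj γ
    have := five_row M (Ψ := fun v => Φ (v 0)) hΦ b 1
    simp [add_comm 1 (θ b)] at this
    exact ⟨1, 1 + b + θ b, by linear_combination this⟩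
  sum3 σ c hc := by
    obtain ⟨y, -, hy2⟩ := exists_θ_ne hy
    have := congrArg W2.b (five_row M (Ψ := fun v => T (σ (v 0)) * c) hc y 1)
    simp at this
    have h1 : σ (θ y) + σ y ^ 2 ≠ 0 := fun e => hy2 (σ.injective (by rw [map_pow]; grind))
    exact two_mul_eq_zero_iff.2 (pow_eq_zero_iff two_ne_zero |>.1
      (mul_left_cancel₀ h1 (by grind)))
  lift := lift M hy
  asym := by
    rintro σ σ' η η' h1 ⟨h2, -⟩ ⟨h3, -⟩
    obtain ⟨y, hy⟩ := hy
    exact hy (by rw [← θθ, ← h1 (θ (θ y)), h3, h2])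
  final := by
    rintro τ σ η φ c ⟨h1, κ, h2⟩ hc hc2 hφ hl hψ hχ hr _ ⟨a, b, rfl⟩
    simpa [final M hy τ σ η φ c h1 h2 hc hc2 hφ hl hψ hχ hr] using h2 a b
  core σ σ' hσ := by
    by_cases h : ∃ t, σ t ≠ σ' (θ t)
    · exact ⟨3, 0, Or.inl ⟨rfl, rfl⟩, core M hy hσ h⟩
    refine ⟨0, 3, Or.inr ⟨rfl, rfl⟩, fun β h0 hβ => core M hy hσ.symm ?_ (fun k l => β l k) h0
      fun x hx => ?_⟩
    · by_contra hn
      push Not at h hn
      obtain ⟨y, hy⟩ := hy
      exact hy (σ.injective (by rw [h y, hn, θθ]))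
    · rw [Finset.sum_comm, ← hβ x hx]
      exact Finset.sum_congr rfl fun _ _ => Finset.sum_congr rfl fun _ _ => by ring

end SzD

/-- Martineau's theorem. -/
theorem ea_of_sz {G : Type*} [Group G] [Finite G] (hG : H12.IsCIT G) (N : Subgroup G) [N.Normal]
    (hN : IsPGroup 2 N) (h : Cfsg.Lie.IsoSuzuki (G ⧸ N)) : H12.EA N := by
  obtain ⟨F, _, _, m, hm, hF, ⟨e⟩⟩ := h
  let := titsOfCard hF
  have hk : (e.toMonoidHom.comp (QuotientGroup.mk' N)).ker = N := by
    rw [← MonoidHom.comap_ker, MonoidHom.ker_eq_bot _ e.injective, MonoidHom.comap_bot,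
      QuotientGroup.ker_mk']
  exact hk ▸ (SzD.datum (lieModel (titsOfCard_θ hF)) (exists_sq_ne (two_lt_card hm hF))).ea_ker hG _
    (e.surjective.comp (QuotientGroup.mk'_surjective N)) (hk.symm ▸ hN)

end Cfsg.Agent.H25
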