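import Cfsg.Agent.H49.Basic

/-!
A Frobenius group `K⟨c⟩` acting on an abelian group of order prime to `|K|`: if the norm map of
`c` vanishes, then `K` acts trivially.
-/

set_option autoImplicit false

namespace Cfsg.Agent.H25

open Subgroup Cfsg.Agent.H49

theorem sum_eq_card_of_norm {L R : Type*} [Group L] [Ring R] (ρ : L →* R) {K : Subgroup L}
    [Fintype K] {c : L} {n : ℕ} (hn : 0 < n) (hc : c ∈ 𝒩(K))
    (hs : ∀ i, 0 < i → i < n → ∀ k ∈ K, k * c ^ i = c ^ i * k → k = 1)
    (h0 : ∑ i ∈ Finset.range n, ρ (c ^ i) = 0) : ∑ k : K, ρ k = Fintype.card K := by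
  obtain ⟨n, rfl⟩ := Nat.exists_eq_succ_of_ne_zero hn.ne'
  have h1 : ∀ i ∈ Finset.range n, ∑ k : K, ρ (k * c ^ (i + 1) * (k : L)⁻¹) =
      (∑ k : K, ρ k) * ρ (c ^ (i + 1)) := by
    intro i hi
    let d := c ^ (i + 1)
    let f : K → K := fun k => ⟨k * (d * (k : L)⁻¹ * d⁻¹),
      mul_mem k.2 (conj_mem_of_norm le_rfl (pow_mem hc _) (inv_mem k.2))⟩
    have hf : Function.Injective f := fun k l e => by
      have e' : (k : L) * (d * (k : L)⁻¹ * d⁻¹) = l * (d * (l : L)⁻¹ * d⁻¹) := congrArg Subtype.val e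
      have := hs (i + 1) (by omega) (by simpa using hi) ((l : L)⁻¹ * k) (mul_mem (inv_mem l.2) k.2) (by
        calc _ = (l : L)⁻¹ * (k * (d * (k : L)⁻¹ * d⁻¹)) * (d * k) := by simp only [d]; group
          _ = _ := by rw [e']; simp only [d]; group)
      exact Subtype.ext (inv_mul_eq_one.1 this).symm
    rw [Finset.sum_mul]
    refine Fintype.sum_bijective f (Finite.injective_iff_bijective.1 hf) _ _ fun k => ?_
    rw [← map_mul]
    simp only [f, d]
    group
  have h2 : ∑ i ∈ Finset.range (n + 1), ∑ k : K, ρ (k * c ^ i * (k : L)⁻¹) = 0 := by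
    rw [Finset.sum_comm]
    refine Finset.sum_eq_zero fun k _ => ?_
    simp only [map_mul]
    rw [← Finset.sum_mul, ← Finset.mul_sum, h0, mul_zero, zero_mul]
  rw [Finset.sum_range_succ'] at h0 h2
  rw [Finset.sum_congr rfl h1, ← Finset.mul_sum, eq_neg_of_add_eq_zero_left h0] at h2
  simpa [neg_add_eq_zero] using h2

open scoped IsMulCommutative in
theorem comm_of_norm {G L : Type*} [Group G] [Group L] [Finite G] (f : G →* L)
    (hf : Function.Surjective f) (A : Subgroup G) [A.Normal] [IsMulCommutative A]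
    (hA : ∀ g ∈ f.ker, ∀ x ∈ A, g * x = x * g) {K : Subgroup L} {c : G} {n : ℕ} (hn : 0 < n)
    (hc : f c ∈ 𝒩(K)) (hs : ∀ i, 0 < i → i < n → ∀ k ∈ K, k * f c ^ i = f c ^ i * k → k = 1)
    (h0 : ∀ v ∈ A, (v * c) ^ n = c ^ n) (hK : (Nat.card K).Coprime (Nat.card A)) {g : G}
    (hg : f g ∈ K) : g ∈ 𝒞(A) := by
  have : Finite L := Finite.of_surjective f hf
  have := Fintype.ofFinite K
  let φ : L →* MulAut A := f.liftOfSurjective hf ⟨MulAut.conjNormal, fun g hg =>
    MulEquiv.ext fun x => Subtype.ext (by simp [hA g hg x x.2])⟩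
  let := MulDistribMulAction.compHom A φ
  have h1 : ∀ g x, ((Representation.ofMulDistribMulAction L A (f g) x).toMul : G) =
      g * x.toMul * g⁻¹ := fun g x => by
    change ((φ (f g) x.toMul : A) : G) = _
    rw [MonoidHom.liftOfRightInverse_comp_apply]
    rfl
  generalize Representation.ofMulDistribMulAction L A = ρ at h1
  have h2 : ∀ (v : Additive A) (m : ℕ), ((v.toMul : G) * c) ^ m =
      ((∑ i ∈ Finset.range m, ρ (f c ^ i)) v).toMul * c ^ m := by
    intro v m
    induction m with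
    | zero => simp
    | succ m ih =>
      rw [pow_succ, ih, Finset.sum_range_succ, LinearMap.add_apply, toMul_add, coe_mul, ← map_pow, h1]
      group
  have h3 := sum_eq_card_of_norm ρ hn hc hs (LinearMap.ext fun v => by
    have := h2 v n
    rw [h0 _ v.toMul.2, right_eq_mul] at this
    exact Subtype.ext this)
  have h4 : ρ (f g) * ∑ k : K, ρ k = ∑ k : K, ρ k := by
    rw [Finset.mul_sum]
    exact Fintype.sum_equiv (Equiv.mulLeft ⟨f g, hg⟩) _ _ fun k => by simp
  rw [h3] at h4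
  intro x hx
  have h5 := congrArg (fun r => ((r (Additive.ofMul ⟨x, hx⟩)).toMul : G)) h4
  simp only [Module.End.mul_apply, Module.End.natCast_apply, map_nsmul, toMul_nsmul, coe_pow,
    h1] at h5
  have h6 := (Nat.Coprime.pow_left_bijective (G := A) (by rwa [Nat.coprime_comm])).1
    (a₁ := ⟨g * x * g⁻¹, (inferInstance : A.Normal).conj_mem x hx g⟩) (a₂ := ⟨x, hx⟩)
    (Subtype.ext (by simpa using h5))
  exact (mul_inv_eq_iff_eq_mul.1 (congrArg Subtype.val h6)).symm

end Cfsg.Agent.H25
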