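import Mathlib

/-!
Witt vectors of length two over a finite field of characteristic two (the Galois ring of
characteristic four), its Teichmüller map, and separation of points by linear functionals.
-/

set_option autoImplicit false

namespace Cfsg.Agent.H25

/-- Witt vectors of length two. -/
@[ext] structure W2 (F : Type*) where
  a : F
  b : F

namespace W2

variable {F : Type*} [Field F]

instance : Add (W2 F) := ⟨fun x y => ⟨x.a + y.a, x.b + y.b + x.a * y.a⟩⟩
instance : Mul (W2 F) := ⟨fun x y => ⟨x.a * y.a, x.a ^ 2 * y.b + y.a ^ 2 * x.b⟩⟩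
instance : Neg (W2 F) := ⟨fun x => ⟨x.a, x.b + x.a ^ 2⟩⟩
instance : Zero (W2 F) := ⟨⟨0, 0⟩⟩
instance : One (W2 F) := ⟨⟨1, 0⟩⟩

@[simp] theorem add_a (x y : W2 F) : (x + y).a = x.a + y.a := rfl
@[simp] theorem add_b (x y : W2 F) : (x + y).b = x.b + y.b + x.a * y.a := rfl
@[simp] theorem mul_a (x y : W2 F) : (x * y).a = x.a * y.a := rfl
@[simp] theorem mul_b (x y : W2 F) : (x * y).b = x.a ^ 2 * y.b + y.a ^ 2 * x.b := rfl
@[simp] theorem neg_a (x : W2 F) : (-x).a = x.a := rfl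
@[simp] theorem neg_b (x : W2 F) : (-x).b = x.b + x.a ^ 2 := rfl
@[simp] theorem zero_a : (0 : W2 F).a = 0 := rfl
@[simp] theorem zero_b : (0 : W2 F).b = 0 := rfl
@[simp] theorem one_a : (1 : W2 F).a = 1 := rfl
@[simp] theorem one_b : (1 : W2 F).b = 0 := rfl

/-- The Teichmüller representatives. -/
def T (x : F) : W2 F := ⟨x, 0⟩

@[simp] theorem T_a (x : F) : (T x).a = x := rfl
@[simp] theorem T_b (x : F) : (T x).b = 0 := rfl
@[simp] theorem T_zero : T (0 : F) = 0 := rfl
@[simp] theorem T_one : T (1 : F) = 1 := rfl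

theorem T_mul (x y : F) : T (x * y) = T x * T y := by ext <;> simp

omit [Field F] in
instance [Finite F] : Finite (W2 F) :=
  Finite.of_injective (fun x => (x.a, x.b)) fun _ _ h =>
    W2.ext (congrArg Prod.fst h) (congrArg Prod.snd h)

variable [CharP F 2]

instance : CommRing (W2 F) := CommRing.ofMinimalAxioms
  (fun _ _ _ => by ext <;> simp <;> ring) (fun _ => by ext <;> simp)
  (fun _ => by ext <;> simp <;> grind) (fun _ _ _ => by ext <;> simp <;> ring)
  (fun _ _ => by ext <;> simp <;> ring) (fun _ => by ext <;> simp)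
  (fun _ _ _ => by ext <;> simp <;> grind)

theorem two_eq : (2 : W2 F) = ⟨0, 1⟩ := by
  rw [← one_add_one_eq_two]; ext <;> simp; grind

@[simp] theorem two_a : (2 : W2 F).a = 0 := by rw [two_eq]
@[simp] theorem two_b : (2 : W2 F).b = 1 := by rw [two_eq]

theorem two_mul_two : (2 : W2 F) * 2 = 0 := by ext <;> simp

theorem two_ne_zero' : (2 : W2 F) ≠ 0 := fun h => by simpa using congrArg W2.b h

instance : Nontrivial (W2 F) := ⟨⟨_, _, two_ne_zero'⟩⟩

theorem T_pow (x : F) (n : ℕ) : T (x ^ n) = T x ^ n := by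
  induction n with
  | zero => simp
  | succ n ih => rw [pow_succ, pow_succ, T_mul, ih]

theorem isUnit_of_a {x : W2 F} (h : x.a ≠ 0) : IsUnit x :=
  IsUnit.of_mul_eq_one ⟨x.a⁻¹, x.b / x.a ^ 4⟩ (by
    ext
    · simp [h]
    · simp; field_simp; grind)

theorem isUnit_odd {n : ℕ} (h : Odd n) : IsUnit (n : W2 F) := by
  obtain ⟨k, rfl⟩ := h
  exact isUnit_of_a (by simp)

theorem two_mul_eq_zero_iff {x : W2 F} : 2 * x = 0 ↔ x.a = 0 := by
  simp [W2.ext_iff]

section Mod

variable {E : Type*} [AddCommGroup E] [Module (W2 F) E]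

theorem T_smul_inj {x y : F} {v : E} (hv : v ≠ 0) (h : T x • v = T y • v) : x = y := by
  by_contra hne
  have : IsUnit (T x + -T y) := isUnit_of_a (by simp; grind)
  exact hv (this.smul_eq_zero.1 (by rw [add_smul, neg_smul, h, add_neg_cancel]))

theorem two_smul_two_smul (v : E) : (2 : W2 F) • (2 : W2 F) • v = 0 := by
  rw [smul_smul, two_mul_two, zero_smul]

variable [Finite F]

theorem exists_sq (x : F) : ∃ r : F, r ^ 2 = x :=
  (Finite.injective_iff_surjective.1 (frobenius_inj F 2)) x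

theorem exists_eq_T_mul {c y : W2 F} (hc : c ≠ 0) (hc2 : 2 * c = 0) (hy : 2 * y = 0) :
    ∃ t, y = T t * c := by
  rw [two_mul_eq_zero_iff] at hc2 hy
  have hb : c.b ≠ 0 := fun e => hc (W2.ext hc2 e)
  obtain ⟨r, hr⟩ := exists_sq (y.b / c.b)
  exact ⟨r, by ext <;> simp [hc2, hy, hr, hb]⟩

theorem smul_eq_T {v : E} (hv : (2 : W2 F) • v = 0) (c : W2 F) : c • v = T c.a • v := by
  obtain ⟨r, hr⟩ := exists_sq c.b
  have : c = T c.a + T r * 2 := by ext <;> simp [hr]
  conv_lhs => rw [this, add_smul, mul_smul, hv, smul_zero, add_zero]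

theorem T_add_smul {v : E} (hv : (2 : W2 F) • v = 0) (x y : F) :
    T (x + y) • v = T x • v + T y • v := by
  rw [← add_smul, smul_eq_T hv (T x + T y)]; rfl

theorem T_add_mul {c : W2 F} (hc : 2 * c = 0) (x y : F) : T (x + y) * c = T x * c + T y * c :=
  T_add_smul (E := W2 F) hc x y

theorem baer : Module.Baer (W2 F) (W2 F) := by
  intro I g
  obtain ⟨x, hx, hd⟩ : ∃ x, ∃ hx : x ∈ I, (∀ y ∈ I, ∃ c, y = c * x) ∧ ∃ c, g ⟨x, hx⟩ = c * x := by
    by_cases h1 : ∃ x ∈ I, x.a ≠ 0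
    · obtain ⟨x, hx, h⟩ := h1
      obtain ⟨u, rfl⟩ := isUnit_of_a h
      exact ⟨u, hx, fun y _ => ⟨y * u⁻¹, by simp⟩, g ⟨u, hx⟩ * u⁻¹, by simp⟩
    push Not at h1
    by_cases h2 : ∃ x ∈ I, x ≠ 0
    · obtain ⟨x, hx, h⟩ := h2
      have h3 := two_mul_eq_zero_iff.2 (h1 x hx)
      refine ⟨x, hx, fun y hy => ?_, ?_⟩
      · exact (exists_eq_T_mul h h3 (two_mul_eq_zero_iff.2 (h1 y hy))).elim fun t ht => ⟨_, ht⟩
      · refine (exists_eq_T_mul h h3 ?_).elim fun t ht => ⟨_, ht⟩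
        rw [← smul_eq_mul, ← map_smul, show (2 : W2 F) • (⟨x, hx⟩ : I) = 0 from Subtype.ext h3,
          map_zero]
    push Not at h2
    exact ⟨0, I.zero_mem, fun y hy => ⟨0, by simp [h2 y hy]⟩, 0, by
      rw [zero_mul]; exact map_zero g⟩
  obtain ⟨h1, c, hc⟩ := hd
  refine ⟨LinearMap.toSpanSingleton _ _ c, fun y hy => ?_⟩
  obtain ⟨d, rfl⟩ := h1 y hy
  rw [show (⟨d * x, hy⟩ : I) = d • (⟨x, hx⟩ : I) from rfl, map_smul, hc]
  simp; ring

theorem exists_dual_ne_zero {v : E} (hv : v ≠ 0) : ∃ f : E →ₗ[W2 F] W2 F, f v ≠ 0 := by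
  wlog h2 : (2 : W2 F) • v = 0 generalizing v
  · obtain ⟨f, hf⟩ := this h2 (two_smul_two_smul v)
    exact ⟨f, fun e => hf (by rw [map_smul, e, smul_zero])⟩
  set i := LinearMap.toSpanSingleton (W2 F) E v
  obtain ⟨f, hf⟩ := baer.extension_property ((LinearMap.ker i).liftQ i le_rfl)
    (LinearMap.ker_eq_bot.1 (Submodule.ker_liftQ_eq_bot _ _ _ le_rfl))
    ((LinearMap.ker i).liftQ (LinearMap.toSpanSingleton _ _ (2 : W2 F)) fun c hc => by
      have : c.a = 0 := by
        by_contra h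
        exact hv ((isUnit_of_a h).smul_eq_zero.1 hc)
      simp [mul_comm c, two_mul_eq_zero_iff, this])
  have := LinearMap.congr_fun hf (Submodule.Quotient.mk 1)
  simp only [LinearMap.comp_apply, Submodule.liftQ_apply, i, LinearMap.toSpanSingleton_apply,
    one_smul] at this
  exact ⟨f, this.trans_ne two_ne_zero'⟩

theorem exists_dual_of_notMem {M : Submodule (W2 F) E} {v : E} (hv : v ∉ M) :
    ∃ f : E →ₗ[W2 F] W2 F, f ∈ M.dualAnnihilator ∧ f v ≠ 0 := by
  obtain ⟨f, hf⟩ := exists_dual_ne_zero (F := F) (v := M.mkQ v) (by simpa using hv)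
  exact ⟨f ∘ₗ M.mkQ, (Submodule.mem_dualAnnihilator _).2 fun w hw => by
    simp [(Submodule.Quotient.mk_eq_zero M).2 hw], hf⟩

end Mod

/-- Additive maps to `W2 F` separate the points of a finite abelian group of exponent four. -/
theorem exists_addHom_ne_zero {A : Type*} [AddCommGroup A] [Finite A] (h4 : ∀ x : A, 4 • x = 0)
    {x : A} (hx : x ≠ 0) : ∃ f : A →+ W2 F, f x ≠ 0 := by
  have h1 : HasEnoughRootsOfUnity (Multiplicative (ZMod 4)) 4 :=
    ⟨⟨Multiplicative.ofAdd 1, by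
      simpa using IsPrimitiveRoot.orderOf (Multiplicative.ofAdd (1 : ZMod 4))⟩,
      have := isCyclic_of_surjective _ (toUnits (G := Multiplicative (ZMod 4))).surjective
      inferInstance⟩
  have h2 := HasEnoughRootsOfUnity.of_dvd (Multiplicative (ZMod 4))
    (Monoid.exponent_dvd_of_forall_pow_eq_one (G := Multiplicative A) (n := 4) fun g => h4 g.toAdd)
  obtain ⟨φ, hφ⟩ := CommGroup.exists_apply_ne_one_of_hasEnoughRootsOfUnity (Multiplicative A)
    (Multiplicative (ZMod 4)) (a := Multiplicative.ofAdd x) hx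
  have h3 : CharP (W2 F) 4 := by
    refine ⟨fun n => ?_⟩
    rw [← Nat.mod_add_div n 4, Nat.cast_add, Nat.cast_mul, show ((4 : ℕ) : W2 F) = 0 by
      rw [← two_mul_two]; norm_num, zero_mul, add_zero, ← Nat.dvd_add_iff_left (dvd_mul_right _ _)]
    have := Nat.mod_lt n (by norm_num : 0 < 4)
    generalize n % 4 = k at this
    interval_cases k
    · simp
    · simp
    · simpa using two_ne_zero'
    · simpa using (isUnit_odd (F := F) (n := 3) (by decide)).ne_zero
  refine ⟨(ZMod.castHom dvd_rfl (W2 F)).toAddMonoidHom.comp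
    (MonoidHom.toAdditive ((Units.coeHom _).comp φ)), fun e => hφ (Units.ext ?_)⟩
  exact ZMod.castHom_injective (W2 F) (e.trans (map_zero _).symm)

end W2

end Cfsg.Agent.H25
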